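import Cfsg.Agent.Lib.Sig.LieKS
import Cfsg.Agent.Lib.FGS83.Kreknin3

/-! Lie rings with a coprime elementary abelian group of automorphisms. -/

set_option autoImplicit false

namespace H43.Lie

open H83.Krek TensorProduct Polynomial

universe u

section dec

variable {R V A : Type*} [CommRing R] [AddCommGroup V] [Module R V] {p : ℕ} [hp : Fact p.Prime]

/-- Common eigenspace. -/
def eig (ω : R) (β : A → Module.End R V) (Y : Set A) (φ : A → ZMod p) : Submodule R V where
  carrier := {g | ∀ a ∈ Y, β a g = ω ^ (φ a).val • g}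
  zero_mem' := by simp
  add_mem' := fun h1 h2 a ha => by rw [map_add, h1 a ha, h2 a ha, smul_add]
  smul_mem' := fun r g h a ha => by rw [map_smul, h a ha, smul_comm]

theorem mem_iSup_eig {ω : R} (h0 : ∑ i ∈ Finset.range p, ω ^ i = 0) {β : A → Module.End R V}
    (hβ : ∀ a, β a ^ p = 1) (hc : ∀ a b x, β a (β b x) = β b (β a x)) {W : Submodule R V}
    (hW : ∀ a, ∀ x ∈ W, β a x ∈ W) (Y : Finset A) :
    ∀ f ∈ W, p ^ Y.card • f ∈ ⨆ φ : A → ZMod p, W ⊓ eig ω β Y φ := by
  classical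
  induction Y using Finset.induction_on with
  | empty =>
    intro f hf
    rw [Finset.card_empty, pow_zero, one_smul]
    exact Submodule.mem_iSup_of_mem 0 ⟨hf, by simp [eig]⟩
  | insert a Y ha ih =>
    intro f hf
    rw [Finset.card_insert_of_notMem ha, pow_succ', mul_smul]
    have key : (⨆ φ : A → ZMod p, W ⊓ eig ω β Y φ) ≤ (⨆ φ : A → ZMod p,
        W ⊓ eig ω β (insert a Y : Finset A) φ).comap ((p : R) • LinearMap.id) := by
      refine iSup_le fun φ g hg => ?_
      have hinv : ∀ x ∈ W ⊓ eig ω β Y φ, β a x ∈ W ⊓ eig ω β Y φ := fun x hx =>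
        ⟨hW a x hx.1, fun b hb => by rw [hc, hx.2 b hb, map_smul]⟩
      obtain ⟨G, hG, e⟩ := sum_proj h0 ((β a).restrict hinv) (by
        rw [Module.End.pow_restrict]
        ext x
        simp [hβ a]) ⟨g, hg⟩
      have e' : (p : R) • g = ∑ i, (G i : V) := by
        rw [← Submodule.coe_sum, e, Nat.cast_smul_eq_nsmul]; rfl
      rw [Submodule.mem_comap, LinearMap.smul_apply, LinearMap.id_apply, e']
      refine sum_mem fun i _ => Submodule.mem_iSup_of_mem (Function.update φ a i) ⟨(G i).2.1, ?_⟩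
      intro b hb
      rcases Finset.mem_insert.1 (Finset.mem_coe.1 hb) with rfl | hb
      · rw [Function.update_self]
        exact congrArg Subtype.val (hG i)
      · rw [Function.update_of_ne (fun h : b = a => ha (h ▸ hb))]
        exact (G i).2.2 b hb
    have := key (ih f hf)
    rwa [Submodule.mem_comap, LinearMap.smul_apply, LinearMap.id_apply,
      Nat.cast_smul_eq_nsmul] at this

end dec

section ext

variable {k R : Type} [CommRing k] [CommRing R] [Algebra k R] {L : Type u} [LieRing L]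
  [LieAlgebra k L]

variable (k R) in
/-- Extension of scalars of a subgroup. -/
def ext (W : AddSubgroup L) : Submodule R (R ⊗[k] L) :=
  Submodule.span R {f | ∃ x ∈ W, (1 : R) ⊗ₜ[k] x = f}

theorem tmul_mem_ext {W : AddSubgroup L} (r : R) {x : L} (hx : x ∈ W) : r ⊗ₜ[k] x ∈ ext k R W := by
  have := Submodule.smul_mem (ext k R W) r (Submodule.subset_span ⟨x, hx, rfl⟩)
  rwa [smul_tmul', smul_eq_mul, mul_one] at this

theorem ext_induction {W : AddSubgroup L} {P : R ⊗[k] L → Prop} (h0 : P 0)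
    (h1 : ∀ r, ∀ x ∈ W, P (r ⊗ₜ[k] x)) (h2 : ∀ f g, P f → P g → P (f + g)) {f : R ⊗[k] L}
    (hf : f ∈ ext k R W) : P f := by
  have : ∀ r : R, P (r • f) := by
    induction hf using Submodule.span_induction with
    | mem f hf =>
      obtain ⟨x, hx, rfl⟩ := hf
      intro r
      rw [smul_tmul']; exact h1 _ x hx
    | zero => intro r; rwa [smul_zero]
    | add f g _ _ hf hg => intro r; rw [smul_add]; exact h2 _ _ (hf r) (hg r)
    | smul s f _ hf => intro r; rw [smul_smul]; exact hf _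
  simpa using this 1

theorem mem_ext_iff {ι : Type} [DecidableEq ι] (bs : Module.Basis ι k R)
    (hk : ∀ (W : AddSubgroup L) (r : k), ∀ x ∈ W, r • x ∈ W) {W : AddSubgroup L}
    {f : R ⊗[k] L} : f ∈ ext k R W ↔ ∀ i, equivFinsuppOfBasisLeft bs f i ∈ W := by
  constructor
  · intro hf i
    refine ext_induction (P := fun f => equivFinsuppOfBasisLeft bs f i ∈ W) (by simp)
      (fun r x hx => ?_) (fun f g hf hg => ?_) hf
    · rw [equivFinsuppOfBasisLeft_apply_tmul_apply]; exact hk _ _ _ hx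
    · rw [map_add, Finsupp.add_apply]; exact add_mem hf hg
  · intro h
    rw [← (equivFinsuppOfBasisLeft bs).symm_apply_apply f, equivFinsuppOfBasisLeft_symm_apply]
    exact sum_mem fun i _ => tmul_mem_ext _ (h i)

theorem ext_mono {V W : AddSubgroup L} (h : V ≤ W) : ext k R V ≤ ext k R W :=
  Submodule.span_mono fun _ ⟨x, hx, e⟩ => ⟨x, h hx, e⟩

theorem mem_ext_top (f : R ⊗[k] L) : f ∈ ext k R (⊤ : AddSubgroup L) := by
  induction f using TensorProduct.induction_on with
  | zero => exact zero_mem _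
  | tmul r x => exact tmul_mem_ext r trivial
  | add f g hf hg => exact add_mem hf hg

theorem ext_bot {f : R ⊗[k] L} (hf : f ∈ ext k R (⊥ : AddSubgroup L)) : f = 0 :=
  ext_induction (P := fun f => f = 0) rfl
    (fun r x hx => by rw [AddSubgroup.mem_bot.1 hx, tmul_zero])
    (fun f g hf hg => by rw [hf, hg, add_zero]) hf

theorem ext_iSup_le {ι : Sort*} (V : ι → AddSubgroup L) : ext k R (⨆ i, V i) ≤ ⨆ i, ext k R (V i) := by
  refine Submodule.span_le.2 ?_
  rintro _ ⟨x, hx, rfl⟩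
  refine AddSubgroup.iSup_induction (C := fun x => (1 : R) ⊗ₜ[k] x ∈ ⨆ i, ext k R (V i)) V hx
    (fun i x hx => Submodule.mem_iSup_of_mem i (tmul_mem_ext _ hx)) (by simp) fun x y hx hy => ?_
  rw [tmul_add]; exact add_mem hx hy

theorem lie_mem_ext {V W : AddSubgroup L} {f g : R ⊗[k] L} (hf : f ∈ ext k R V) (hg : g ∈ ext k R W) :
    ⁅f, g⁆ ∈ ext k R (br V W) := by
  refine ext_induction (P := fun f => ⁅f, g⁆ ∈ ext k R (br V W)) (by simp) (fun r x hx => ?_)
    (fun f f' h1 h2 => by rw [add_lie]; exact add_mem h1 h2) hf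
  refine ext_induction (P := fun g => ⁅r ⊗ₜ[k] x, g⁆ ∈ ext k R (br V W)) (by simp) (fun s y hy => ?_)
    (fun f f' h1 h2 => by rw [lie_add]; exact add_mem h1 h2) hg
  rw [LieAlgebra.ExtendScalars.bracket_tmul]
  exact tmul_mem_ext _ (lie_mem_br hx hy)

theorem it_ext_le (V W : AddSubgroup L) (n : ℕ) :
    it (ext k R V).toAddSubgroup (ext k R W).toAddSubgroup n ≤ (ext k R (it V W n)).toAddSubgroup := by
  induction n with
  | zero => exact le_rfl
  | succ n ih => exact br_le.2 fun a ha b hb => lie_mem_ext (ih ha) hb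

theorem tmul_mem_it (n : ℕ) : ∀ x ∈ it (⊤ : AddSubgroup L) ⊤ n,
    (1 : R) ⊗ₜ[k] x ∈ it (⊤ : AddSubgroup (R ⊗[k] L)) ⊤ n := by
  induction n with
  | zero => exact fun _ _ => trivial
  | succ n ih =>
    have : it (⊤ : AddSubgroup L) ⊤ (n + 1) ≤ (it (⊤ : AddSubgroup (R ⊗[k] L)) ⊤ (n + 1)).comap
        (TensorProduct.mk k R L 1).toAddMonoidHom := by
      refine br_le.2 fun a ha b _ => ?_
      have := lie_mem_br (ih a ha) (AddSubgroup.mem_top ((1 : R) ⊗ₜ[k] b))
      rwa [LieAlgebra.ExtendScalars.bracket_tmul, mul_one] at this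
    exact fun x hx => this hx

theorem baseChange_lie (α : Module.End k L) (hα : ∀ x y, α ⁅x, y⁆ = ⁅α x, α y⁆) (f g : R ⊗[k] L) :
    α.baseChange R ⁅f, g⁆ = ⁅α.baseChange R f, α.baseChange R g⁆ := by
  induction f using TensorProduct.induction_on with
  | zero => simp
  | add a b ha hb => rw [add_lie, map_add, map_add, add_lie, ha, hb]
  | tmul a x =>
    induction g using TensorProduct.induction_on with
    | zero => simp
    | add a b ha hb => rw [lie_add, map_add, map_add, lie_add, ha, hb]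
    | tmul b y =>
      rw [LieAlgebra.ExtendScalars.bracket_tmul, LinearMap.baseChange_tmul,
        LinearMap.baseChange_tmul, LinearMap.baseChange_tmul,
        LieAlgebra.ExtendScalars.bracket_tmul, hα]

theorem coord_baseChange {ι : Type} [DecidableEq ι] (bs : Module.Basis ι k R) (α : Module.End k L)
    (f : R ⊗[k] L) (i : ι) : equivFinsuppOfBasisLeft bs (α.baseChange R f) i =
      α (equivFinsuppOfBasisLeft bs f i) := by
  induction f using TensorProduct.induction_on with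
  | zero => simp
  | add a b ha hb => simp only [map_add, Finsupp.add_apply, ha, hb]
  | tmul a x =>
    rw [LinearMap.baseChange_tmul, equivFinsuppOfBasisLeft_apply_tmul_apply,
      equivFinsuppOfBasisLeft_apply_tmul_apply, map_smul]

end ext

theorem exists_cocyclic {R V A : Type*} [CommRing R] [AddCommGroup V] [Module R V] [Group A]
    {p : ℕ} [hp : Fact p.Prime] {ω : R} (h1 : ω ^ p = 1) (β : A →* Module.End R V)
    (φ : A → ZMod p) : ∃ B : Subgroup A, (∃ a, B ⊔ Subgroup.zpowers a = ⊤) ∧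
      ∀ b ∈ B, ∀ f ∈ eig ω β Set.univ φ, β b f = f := by
  let B : Subgroup A :=
    { carrier := {b | ∀ f ∈ eig ω β Set.univ φ, β b f = f}
      one_mem' := fun f _ => by simp
      mul_mem' := fun h1 h2 f hf => by rw [map_mul, Module.End.mul_apply, h2 f hf, h1 f hf]
      inv_mem' := fun {b} h f hf => by
        conv_lhs => rw [← h f hf]
        rw [← Module.End.mul_apply, ← map_mul, inv_mul_cancel, map_one, Module.End.one_apply] }
  refine ⟨B, ?_, fun b hb => hb⟩
  by_cases hB : ∃ a, a ∉ B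
  · obtain ⟨a, ha⟩ := hB
    have h2 : φ a ≠ 0 := fun h => ha fun f hf => by rw [hf a trivial, h]; simp
    refine ⟨a, eq_top_iff.2 fun x _ => ?_⟩
    have h3 : ∀ (k : ℕ), ∀ f ∈ eig ω β Set.univ φ, β (a ^ k) f = ω ^ ((k : ZMod p) * φ a).val • f := by
      intro k f hf
      induction k with
      | zero => simp
      | succ k ih =>
        rw [pow_succ', map_mul, Module.End.mul_apply, ih, map_smul, hf a trivial, smul_smul,
          ← pow_val_add h1]
        congr 3
        push_cast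
        ring
    have h4 : x * a ^ (-φ x / φ a).val ∈ B := fun f hf => by
      rw [map_mul, Module.End.mul_apply, h3 _ f hf, map_smul, hf x trivial, smul_smul,
        ← pow_val_add h1, ZMod.natCast_zmod_val, div_mul_cancel₀ _ h2]
      simp
    have := mul_mem (Subgroup.mem_sup_left (T := Subgroup.zpowers a) h4)
      (Subgroup.mem_sup_right (inv_mem (Subgroup.npow_mem_zpowers a (-φ x / φ a).val)))
    rwa [mul_inv_cancel_right] at this
  · push Not at hB
    exact ⟨1, eq_top_iff.2 fun x _ => Subgroup.mem_sup_left (hB x)⟩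

theorem mem_of_nsmul_mem {V : Type*} [AddCommGroup V] {W : AddSubgroup V} {n m : ℕ}
    (h : n.Coprime m) {x : V} (hn : n • x = 0) (hm : m • x ∈ W) : x ∈ W := by
  have h1 : ((n.gcd m : ℕ) : ℤ) • x ∈ W := by
    rw [Nat.gcd_eq_gcd_ab, add_smul, mul_comm, mul_smul, natCast_zsmul, hn, smul_zero, zero_add,
      mul_comm, mul_smul, natCast_zsmul]
    exact zsmul_mem hm _
  rwa [h.gcd_eq_one, Nat.cast_one, one_smul] at h1

theorem action_bound_aux (p : ℕ) [hp : Fact p.Prime] (c t s : ℕ) : ∃ N : ℕ,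
    ∀ (k R κ : Type) [CommRing k] [CommRing R] [Algebra k R] (ω : R) (bs : Module.Basis κ k R)
    (i₀ : κ), ∑ i ∈ Finset.range p, ω ^ i = 0 → bs i₀ = 1 → ∀ (L : Type u) [LieRing L]
    [LieAlgebra k L] (A ι : Type u) [Group A] [Fintype A] [Fintype ι] (ρ : A →* Module.End k L)
    (V : ι → AddSubgroup L) (n : ℕ), (∀ (W : AddSubgroup L) (r : k), ∀ x ∈ W, r • x ∈ W) →
    Fintype.card ι = t → Fintype.card A = s →
    (∀ a b : A, a * b = b * a) → (∀ a : A, a ^ p = 1) →
    (∀ a x y, ρ a ⁅x, y⁆ = ⁅ρ a x, ρ a y⁆) → n.Coprime p → (∀ x : L, n • x = 0) →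
    (∀ i a, ∀ x ∈ V i, ρ a x ∈ V i) → (⨆ i, V i) = ⊤ →
    (∀ i, ∀ x ∈ V i, ∀ y, (∀ a, ρ a y = y) → ⁅x, y⁆ ∈ V i) →
    (∀ i j (B : Subgroup A), (∃ a, B ⊔ Subgroup.zpowers a = ⊤) →
      ∃ l, ∀ x ∈ br (V i) (V j), (∀ b ∈ B, ρ b x = x) → x ∈ V l) →
    (∀ i, it ⊤ (V i) c = ⊥) → it (⊤ : AddSubgroup L) ⊤ N = ⊥ := by
  classical
  obtain ⟨N, hN⟩ := graded_bound.{u} p c (t * p ^ s) s
  refine ⟨N, fun k R κ _ _ _ ω bs i₀ h0 hi₀ L _ _ A ι _ _ _ ρ V n hk ht hs hcomm hexp hlie hn hnL hV
    htop h2 h3 h4 => ?_⟩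
  have h1 : ω ^ p = 1 := by
    have := mul_geom_sum ω p
    rw [h0, mul_zero] at this
    exact (sub_eq_zero.1 this.symm)
  let β : A →* Module.End R (R ⊗[k] L) :=
    { toFun := fun a => (ρ a).baseChange R
      map_one' := by rw [map_one, LinearMap.baseChange_one]
      map_mul' := fun a b => by rw [map_mul, LinearMap.baseChange_mul] }
  have hβ : ∀ a f, β a f = (ρ a).baseChange R f := fun _ _ => rfl
  have hn' : ∀ f : R ⊗[k] L, n • f = 0 := fun f => by
    induction f using TensorProduct.induction_on with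
    | zero => simp
    | add a b ha hb => rw [smul_add, ha, hb, add_zero]
    | tmul r x =>
      have := map_nsmul (TensorProduct.mk k R L r) n x
      rw [hnL, map_zero] at this
      exact this.symm
  let U : ι × (A → ZMod p) → AddSubgroup (R ⊗[k] L) := fun i =>
    (ext k R (V i.1) ⊓ eig ω β Set.univ i.2).toAddSubgroup
  have hU : ∀ i f, f ∈ U i ↔ f ∈ ext k R (V i.1) ∧ f ∈ eig ω β Set.univ i.2 := fun _ _ => Iff.rfl
  have heig : ∀ φ ψ : A → ZMod p, ∀ f ∈ eig ω β Set.univ φ, ∀ g ∈ eig ω β Set.univ ψ,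
      ⁅f, g⁆ ∈ eig ω β Set.univ (φ + ψ) := fun φ ψ f hf g hg a _ => by
    rw [hβ, baseChange_lie _ (hlie a), ← hβ, ← hβ, hf a trivial, hg a trivial, smul_lie, lie_smul,
      smul_smul, Pi.add_apply, pow_val_add h1]
  have hfix : ∀ (a : A) (f : R ⊗[k] L), β a f = f → ∀ i,
      ρ a (equivFinsuppOfBasisLeft bs f i) = equivFinsuppOfBasisLeft bs f i := fun a f hf i => by
    rw [← coord_baseChange, ← hβ, hf]
  have hUtop : (⨆ i, U i) = ⊤ := by
    refine eq_top_iff.2 fun f _ => ?_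
    have h5 : f ∈ ⨆ i, ext k R (V i) := ext_iSup_le V (htop ▸ mem_ext_top f)
    refine Submodule.iSup_induction (motive := fun f => f ∈ ⨆ i, U i) _ h5 (fun i f hf => ?_)
      (zero_mem _) fun f g => add_mem
    refine mem_of_nsmul_mem (hn.pow_right (Finset.univ : Finset A).card) (hn' f) ?_
    have h6 := mem_iSup_eig h0 (β := β) (fun a => by rw [← map_pow, hexp, map_one])
      (fun a b x => by
        rw [← Module.End.mul_apply, ← map_mul, hcomm, map_mul, Module.End.mul_apply])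
      (W := ext k R (V i)) (fun a x hx => (mem_ext_iff bs hk).2 fun j => by
        rw [hβ, coord_baseChange]; exact hV i a _ ((mem_ext_iff bs hk).1 hx j)) Finset.univ f hf
    rw [Finset.coe_univ] at h6
    exact Submodule.iSup_induction (motive := fun f => f ∈ ⨆ i, U i) _ h6
      (fun φ g hg => (le_iSup U (i, φ)) hg) (zero_mem _) fun f g => add_mem
  have key := hN (R ⊗[k] L) (ι × (A → ZMod p)) A Prod.snd U ⊤
    (by rw [Fintype.card_prod, Fintype.card_fun, ZMod.card, ht, hs])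
    (fun i j => by
      obtain ⟨B, hB, hB'⟩ := exists_cocyclic h1 β (i.2 + j.2)
      obtain ⟨l, hl⟩ := h3 i.1 j.1 B hB
      refine ⟨(l, i.2 + j.2), rfl, br_le.2 fun f hf g hg => ?_⟩
      have h5 := heig _ _ f hf.2 g hg.2
      exact ⟨(mem_ext_iff bs hk).2 fun l' => hl _ ((mem_ext_iff bs hk).1 (lie_mem_ext hf.1 hg.1) l')
        fun b hb => hfix b _ (hB' b hb _ h5) l', h5⟩)
    (fun i j hj => br_le.2 fun f hf g hg => by
      have h5 := heig _ _ f hf.2 g hg.2
      rw [hj, add_zero] at h5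
      let F : AddSubgroup L :=
        { carrier := {y | ∀ a, ρ a y = y}
          zero_mem' := fun a => map_zero _
          add_mem' := fun h1 h2 a => by rw [map_add, h1 a, h2 a]
          neg_mem' := fun h a => by rw [map_neg, h a] }
      have h6 : g ∈ ext k R F := (mem_ext_iff bs hk).2 fun l' a => hfix a _ (by
        have := hg.2 a trivial
        rwa [hj, Pi.zero_apply, ZMod.val_zero, pow_zero, one_smul] at this) l'
      exact ⟨ext_mono (br_le.2 fun x hx y (hy : y ∈ F) => h2 i.1 x hx y hy) (lie_mem_ext hf.1 h6), h5⟩)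
    le_top le_top
    (fun i => eq_bot_iff.2 fun f hf => by
      have h5 := it_ext_le (k := k) (R := R) ⊤ (V i.1) c
        (it_mono (fun g _ => mem_ext_top g) (fun g hg => ((hU i g).1 hg).1) c hf)
      rw [h4] at h5
      exact ext_bot h5)
    Finset.univ (by rw [Finset.card_univ, hs])
  have h5 : (⨆ i : ι × (A → ZMod p), cut (∀ x ∉ (Finset.univ : Finset A), i.2 x = 0) (U i)) = ⊤ :=
    eq_top_iff.2 (hUtop.ge.trans (iSup_mono fun i => le_cut (by simp) le_rfl))
  rw [h5] at key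
  refine eq_bot_iff.2 fun x hx => ?_
  have h6 := tmul_mem_it (k := k) (R := R) N x hx
  rw [key, AddSubgroup.mem_bot] at h6
  have h7 := congrArg (fun f => equivFinsuppOfBasisLeft bs f i₀) h6
  simp only [map_zero, Finsupp.zero_apply] at h7
  rwa [equivFinsuppOfBasisLeft_apply_tmul_apply, ← hi₀, bs.repr_self, Finsupp.single_eq_same,
    one_smul] at h7

/-- The class bound for a Lie ring spanned by a suitable family of invariant subgroups. -/
theorem action_bound (p : ℕ) [hp : Fact p.Prime] (c t s : ℕ) : ∃ N : ℕ, ∀ (L : Type u) [LieRing L]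
    (A ι : Type u) [Group A] [Fintype A] [Fintype ι] (ρ : A →* Module.End ℤ L)
    (V : ι → AddSubgroup L) (n : ℕ), Fintype.card ι = t → Fintype.card A = s →
    (∀ a b : A, a * b = b * a) → (∀ a : A, a ^ p = 1) →
    (∀ a x y, ρ a ⁅x, y⁆ = ⁅ρ a x, ρ a y⁆) → n.Coprime p → (∀ x : L, n • x = 0) →
    (∀ i a, ∀ x ∈ V i, ρ a x ∈ V i) → (⨆ i, V i) = ⊤ →
    (∀ i, ∀ x ∈ V i, ∀ y, (∀ a, ρ a y = y) → ⁅x, y⁆ ∈ V i) →
    (∀ i j (B : Subgroup A), (∃ a, B ⊔ Subgroup.zpowers a = ⊤) →
      ∃ l, ∀ x ∈ br (V i) (V j), (∀ b ∈ B, ρ b x = x) → x ∈ V l) →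
    (∀ i, it ⊤ (V i) c = ⊥) → it (⊤ : AddSubgroup L) ⊤ N = ⊥ := by
  obtain ⟨N, hN⟩ := action_bound_aux.{u} p c t s
  refine ⟨N, fun L _ A ι _ _ _ ρ V n => ?_⟩
  obtain ⟨R, _, ω, h0, κ, bs, i₀, hi₀⟩ : ∃ (R : Type) (_ : CommRing R) (ω : R),
      ∑ i ∈ Finset.range p, ω ^ i = 0 ∧ ∃ (κ : Type) (bs : Module.Basis κ ℤ R) (i₀ : κ),
      bs i₀ = 1 := by
    let pb := AdjoinRoot.powerBasis' (cyclotomic.monic p ℤ)
    have hd : 0 < pb.dim := by
      change 0 < (cyclotomic p ℤ).natDegree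
      rw [natDegree_cyclotomic, Nat.totient_pos]
      exact hp.out.pos
    refine ⟨_, inferInstance, AdjoinRoot.root (cyclotomic p ℤ), ?_, _, pb.basis, ⟨0, hd⟩,
      by rw [pb.basis_eq_pow]; simp⟩
    have h := AdjoinRoot.aeval_eq (f := cyclotomic p ℤ) (∑ i ∈ Finset.range p, X ^ i)
    rw [← cyclotomic_prime ℤ p, AdjoinRoot.mk_self] at h
    have h' : aeval (AdjoinRoot.root (cyclotomic p ℤ))
        (∑ i ∈ Finset.range p, (X : ℤ[X]) ^ i) = 0 := by
      rw [← cyclotomic_prime ℤ p]; exact h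
    simpa using h'
  exact hN ℤ R κ ω bs i₀ h0 hi₀ L A ι ρ V n fun W r x hx => zsmul_mem hx r

end H43.Lie
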