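import Cfsg.Agent.Lib.Sig.LieGrp
import Cfsg.Agent.S3757

/-! Special families of subgroups for a coprime elementary abelian action. -/

set_option autoImplicit false

namespace H43.Lie

open H83.Krek H2 Subgroup
open scoped commutatorElement

universe u

section fam

variable {G A : Type u} [Group G] [Group A] (φ : A →* MulAut G)

/-- Fixed point subgroups of cocyclic subgroups. -/
def fam0 : Set (Subgroup G) := {U | ∃ B : Subgroup A, (∃ a, B ⊔ zpowers a = ⊤) ∧ fixSub φ B = U}

/-- Commutators of members, cut by fixed point subgroups of cocyclic subgroups. -/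
def step (F F' : Set (Subgroup G)) : Set (Subgroup G) :=
  {W | ∃ U ∈ F, ∃ U' ∈ F', ∃ C ∈ fam0 φ, ⁅U, U'⁆ ⊓ C = W}

/-- Every member of the first family lies in a member of the second. -/
def Ref (F F' : Set (Subgroup G)) : Prop := ∀ U ∈ F, ∃ U' ∈ F', U ≤ U'

/-- Members are invariant and normalized by the fixed points. -/
def Good (F : Set (Subgroup G)) : Prop :=
  ∀ U ∈ F, (∀ a, ∀ x ∈ U, φ a x ∈ U) ∧ fixSub φ ⊤ ≤ normalizer (U : Set G)

variable {φ}

theorem Ref.refl (F : Set (Subgroup G)) : Ref F F := fun U hU => ⟨U, hU, le_rfl⟩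

theorem Ref.trans {F F' F'' : Set (Subgroup G)} (h : Ref F F') (h' : Ref F' F'') : Ref F F'' :=
  fun U hU => by
    obtain ⟨V, hV, e⟩ := h U hU
    obtain ⟨W, hW, e'⟩ := h' V hV
    exact ⟨W, hW, e.trans e'⟩

theorem Ref.step {E E' F F' : Set (Subgroup G)} (h : Ref E F) (h' : Ref E' F') :
    Ref (step φ E E') (step φ F F') := by
  rintro _ ⟨U, hU, U', hU', C, hC, rfl⟩
  obtain ⟨V, hV, e⟩ := h U hU
  obtain ⟨V', hV', e'⟩ := h' U' hU'
  exact ⟨_, ⟨V, hV, V', hV', C, hC, rfl⟩, inf_le_inf_right _ (commutator_mono e e')⟩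

theorem ref_step_fam0 (F F' : Set (Subgroup G)) : Ref (step φ F F') (fam0 φ) := by
  rintro _ ⟨U, _, U', _, C, hC, rfl⟩
  exact ⟨C, hC, inf_le_right⟩

theorem fixSub_anti {B B' : Subgroup A} (h : B ≤ B') : fixSub φ B' ≤ fixSub φ B :=
  fun _ hx b hb => hx b (h hb)

theorem good_fam0 (hA : IsMulCommutative A) : Good φ (fam0 φ) := by
  rintro _ ⟨B, _, rfl⟩
  refine ⟨fun a x hx b hb => ?_, (fixSub_anti le_top).trans le_normalizer⟩
  rw [← MulAut.mul_apply, ← map_mul, hA.is_comm.comm b a, map_mul, MulAut.mul_apply, hx b hb]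

theorem Good.step (hA : IsMulCommutative A) {F F' : Set (Subgroup G)} (h : Good φ F)
    (h' : Good φ F') : Good φ (step φ F F') := by
  rintro _ ⟨U, hU, U', hU', C, hC, rfl⟩
  exact ⟨fun a x hx => ⟨inv_commutator ((h U hU).1 a) ((h' U' hU').1 a) x hx.1,
      (good_fam0 hA C hC).1 a x hx.2⟩,
    le_normalizer_inf (le_normalizer_commutator (h U hU).2 (h' U' hU').2) (good_fam0 hA C hC).2⟩

theorem ncard_fam0 [Finite A] : (fam0 φ).ncard ≤ 2 ^ Nat.card A := by
  have h1 : fam0 φ ⊆ (fun X : Set A => fixSub φ (closure X)) '' Set.univ := by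
    rintro _ ⟨B, _, rfl⟩
    exact ⟨B, trivial, by simp⟩
  refine (Set.ncard_le_ncard h1 (Set.toFinite _)).trans ((Set.ncard_image_le (Set.toFinite _)).trans ?_)
  rw [Set.ncard_univ]
  have := Fintype.ofFinite A
  classical
  rw [Nat.card_eq_fintype_card, Nat.card_eq_fintype_card, Fintype.card_set]

theorem ncard_step [Finite G] (F F' : Set (Subgroup G)) :
    (step φ F F').ncard ≤ F.ncard * (F'.ncard * (fam0 φ).ncard) := by
  have h1 : step φ F F' ⊆ (fun x : Subgroup G × Subgroup G × Subgroup G => ⁅x.1, x.2.1⁆ ⊓ x.2.2) ''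
      (F ×ˢ F' ×ˢ fam0 φ) := by
    rintro _ ⟨U, hU, U', hU', C, hC, rfl⟩
    exact ⟨(U, U', C), ⟨hU, hU', hC⟩, rfl⟩
  refine (Set.ncard_le_ncard h1 (Set.toFinite _)).trans
    ((Set.ncard_image_le (Set.toFinite _)).trans ?_)
  rw [Set.ncard_prod, Set.ncard_prod]

variable [Finite G] [Finite A]

theorem sSup_fam0 (hA : IsMulCommutative A) (hcop : (Nat.card A).Coprime (Nat.card G)) :
    sSup (fam0 φ) = ⊤ :=
  top_le_iff.1 (ext_le_of_forall_cocyclic (φ := φ) hA (fun _ _ _ => trivial)
    (coprime_subgroups (B := ⊤) hcop |>.coprime_dvd_left (by rw [card_top]))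
    fun B hB => inf_le_right.trans (le_sSup ⟨B, hB, rfl⟩))

theorem sSup_step (hA : IsMulCommutative A) (hcop : (Nat.card A).Coprime (Nat.card G))
    {F F' : Set (Subgroup G)} (h : Good φ F) (h' : Good φ F') (r : Ref (step φ F F') F)
    (r' : Ref (step φ F F') F') : sSup (step φ F F') = ⁅sSup F, sSup F'⁆ := by
  refine le_antisymm (sSup_le ?_) ?_
  · rintro _ ⟨U, hU, U', hU', C, _, rfl⟩
    exact inf_le_left.trans (commutator_mono (le_sSup hU) (le_sSup hU'))
  have h1 : ∀ U ∈ F, ∀ U' ∈ F', ⁅U, U'⁆ ≤ sSup (step φ F F') := fun U hU U' hU' =>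
    ext_le_of_forall_cocyclic (φ := φ) hA
      (fun a => inv_commutator ((h U hU).1 a) ((h' U' hU').1 a))
      (hcop.coprime_dvd_right (card_subgroup_dvd_card _))
      fun B hB => le_sSup ⟨U, hU, U', hU', _, ⟨B, hB, rfl⟩, rfl⟩
  have h2 : ∀ X : Subgroup G, (∀ W ∈ step φ F F', ⁅W, X⁆ ≤ sSup (step φ F F')) →
      X ≤ normalizer ((sSup (step φ F F') : Subgroup G) : Set G) := fun X hX => by
    rw [le_normalizer_iff_commutator_le_left]
    conv_lhs => rw [sSup_eq_iSup']
    exact commutator_iSup_le (fun W => (le_sSup W.2).trans le_normalizer) fun W => hX W W.2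
  have h3 : ∀ U ∈ F, U ≤ normalizer ((sSup (step φ F F') : Subgroup G) : Set G) := fun U hU =>
    h2 U fun W hW => by
      obtain ⟨U', hU', e⟩ := r' W hW
      rw [commutator_comm]
      exact (commutator_mono le_rfl e).trans (h1 U hU U' hU')
  have h4 : ∀ U' ∈ F', U' ≤ normalizer ((sSup (step φ F F') : Subgroup G) : Set G) :=
    fun U' hU' => h2 U' fun W hW => by
      obtain ⟨U, hU, e⟩ := r W hW
      exact (commutator_mono e le_rfl).trans (h1 U hU U' hU')
  rw [sSup_eq_iSup' F, sSup_eq_iSup' F']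
  refine commutator_iSup_le (fun U => h3 U U.2) fun U => ?_
  rw [commutator_comm]
  refine commutator_iSup_le (fun U' => h4 U' U'.2) fun U' => ?_
  rw [commutator_comm]
  exact h1 U U.2 U' U'.2

omit [Finite G] in
theorem index_le_of_cocyclic (hA : IsMulCommutative A) {p : ℕ} (hp : p.Prime)
    (hAp : ∀ a : A, a ^ p = 1) {B : Subgroup A} (hB : ∃ a, B ⊔ zpowers a = ⊤) : B.index ≤ p := by
  obtain ⟨a, ha⟩ := hB
  have : B.Normal := ⟨fun n hn g => by rwa [hA.is_comm.comm g n, mul_inv_cancel_right]⟩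
  rw [← relIndex_top_right, ← ha, relIndex_sup_left]
  refine (Nat.le_of_dvd Nat.card_pos (relIndex_dvd_card _ _)).trans ?_
  rw [Nat.card_zpowers]
  exact Nat.le_of_dvd hp.pos (orderOf_dvd_of_pow_eq_one (hAp a))

theorem isSolvable_of_fix {p : ℕ} [Fact p.Prime] (hA : IsMulCommutative A)
    (hAp : ∀ a : A, a ^ p = 1) (h3 : p ^ 3 ≤ Nat.card A) (hG : (Nat.card G).Coprime p)
    (h : ∀ a : A, a ≠ 1 → Group.IsSolvable (fixSub φ (zpowers a))) : Group.IsSolvable G := by
  have h1 := Cfsg.Agent.S3757.result (p := p) (sdR φ ⊤) (sdL φ ⊤)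
    ⟨inferInstance, by rintro _ ⟨a, _, rfl⟩; rw [← map_pow, hAp, map_one]⟩
    (by rwa [card_sdR, card_top]) (sdR_le_normalizer_top ⊤) (by rwa [card_sdL, card_top]) (by
      rintro _ ⟨a, _, rfl⟩ ha
      have h2 : a ≠ 1 := by rintro rfl; exact ha (map_one _)
      refine H1.isSolvable_of_le (H1.isSolvable_map (h a h2) SemidirectProduct.inl) ?_
      rintro _ ⟨⟨x, _, rfl⟩, hx⟩
      refine ⟨x, fun b hb => ?_, rfl⟩
      have h4 := inl_mem_centralizer_inr_iff.1 hx
      have h5 : zpowers a ≤ (MulAction.stabilizer (MulAut G) x).comap φ := zpowers_le.2 h4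
      exact h5 hb)
  exact H1.isSolvable_of_mulEquiv ((sdLEquiv ⊤).symm.trans topEquiv) h1

end fam

/-- The general bound: `T` is a monotone term operator, `F` a special family of depth `e`. -/
theorem special_bound (p : ℕ) [hp : Fact p.Prime] (k c t : ℕ) (hk : 3 ≤ k) : ∃ N : ℕ,
    ∀ (G A : Type u) [Group G] [Group A] [Finite G] [Finite A]
      (φ : A →* MulAut G) (F : Set (Subgroup G)) (T : Subgroup G → Subgroup G) (H : Subgroup G)
      [H.Characteristic], F.ncard ≤ t → Nat.card A = p ^ k →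
      IsMulCommutative A → (∀ a : A, a ^ p = 1) → (Nat.card G).Coprime p →
      Good φ F → sSup F = H → Ref (step φ F F) F → Monotone T → (∀ X, ⁅X, T X⁆ ≤ T X) →
      (∀ U ∈ F, ∃ B : Subgroup A, B.index ≤ p ^ (k - 2) ∧ U ≤ T (fixSub φ B)) →
      (∀ a : A, a ≠ 1 → Group.IsSolvable (fixSub φ (zpowers a))) →
      (∀ a : A, a ≠ 1 → (T (fixSub φ (zpowers a))).lowerCentralSeries c = ⊥) →
      H.lowerCentralSeries N = ⊥ := by
  obtain ⟨N, hN⟩ := class_bound.{u} p (c + 1) t (p ^ k)
  refine ⟨N, ?_⟩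
  intro G A _ _ _ _ φ F T H _ ht hs hA hAp hG hF hT hR hm hn hd hsol hc
  refine hN G A F φ (fun U => U) H ht hs hA hAp hG
    (isSolvable_of_fix hA hAp (hs ▸ Nat.pow_le_pow_right hp.out.pos hk) hG hsol)
    (fun U => (hF U U.2).1) (by rw [← sSup_eq_iSup', hT])
    (fun U => commutator_le_of_le_normalizer (hF U U.2).2) (fun U U' B hB => ?_) fun U B' hB' => ?_
  · obtain ⟨W, hW, e⟩ := hR _ ⟨U, U.2, U', U'.2, _, ⟨B, hB, rfl⟩, rfl⟩
    exact ⟨⟨W, hW⟩, e⟩
  · obtain ⟨B, hB, e⟩ := hd U U.2
    have h1 : B ⊓ B' ≠ ⊥ := by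
      intro h
      have h2 := index_inf_le (H := B) (K := B')
      rw [h, index_bot, hs] at h2
      have h3 := h2.trans (Nat.mul_le_mul hB (index_le_of_cocyclic hA hp.out hAp hB'))
      rw [← pow_succ] at h3
      have := (Nat.pow_le_pow_iff_right hp.out.one_lt).1 h3
      omega
    obtain ⟨⟨a, ha⟩, ha1⟩ := ne_bot_iff_exists_ne_one.1 h1
    have ha2 : a ≠ 1 := fun h => ha1 (Subtype.ext h)
    have h4 : (U : Subgroup G) ≤ T (fixSub φ (zpowers a)) :=
      e.trans (hm (fixSub_anti (zpowers_le.2 ha.1)))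
    have h5 : ∀ n, itG (fixSub φ (zpowers a)) (T (fixSub φ (zpowers a))) (n + 1) ≤
        (T (fixSub φ (zpowers a))).lowerCentralSeries n := by
      intro n
      induction n with
      | zero => exact hn _
      | succ n ih => exact commutator_mono ih le_rfl
    exact le_bot_iff.1 ((itG_mono (fixSub_anti (zpowers_le.2 ha.2)) h4 _).trans
      ((h5 c).trans (hc a ha2).le))

section two

variable {G A : Type u} [Group G] [Group A] (φ : A →* MulAut G)

/-- The special family for the derived series. -/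
def famD : ℕ → Set (Subgroup G)
  | 0 => fam0 φ
  | n + 1 => step φ (famD n) (famD n)

/-- The special family for the lower central series. -/
def famL : ℕ → Set (Subgroup G)
  | 0 => fam0 φ
  | n + 1 => step φ (famL n) (fam0 φ)

/-- Derived terms computed in the ambient group. -/
def derT (X : Subgroup G) : ℕ → Subgroup G
  | 0 => X
  | n + 1 => ⁅derT X n, derT X n⁆

/-- Size bound for the families. -/
def szD (s : ℕ) : ℕ → ℕ
  | 0 => 2 ^ s
  | n + 1 => szD s n * (szD s n * 2 ^ s)

/-- Size bound for the families. -/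
def szL (s : ℕ) : ℕ → ℕ
  | 0 => 2 ^ s
  | n + 1 => szL s n * (2 ^ s * 2 ^ s)

variable {φ}

theorem derT_mono (n : ℕ) : Monotone fun X : Subgroup G => derT X n := fun X Y h => by
  induction n with
  | zero => exact h
  | succ n ih => exact commutator_mono ih ih

theorem le_normalizer_derT (X : Subgroup G) (n : ℕ) : X ≤ normalizer (derT X n : Set G) := by
  induction n with
  | zero => exact le_normalizer
  | succ n ih => exact le_normalizer_commutator ih ih

theorem map_derivedSeries_subtype (X : Subgroup G) (n : ℕ) :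
    (derivedSeries X n).map X.subtype = derT X n := by
  induction n with
  | zero => rw [derivedSeries_zero, ← MonoidHom.range_eq_map, range_subtype]; rfl
  | succ n ih => rw [derivedSeries_succ, map_commutator, ih]; rfl

theorem ref_famD (n : ℕ) : Ref (famD φ (n + 1)) (famD φ n) := by
  induction n with
  | zero => exact ref_step_fam0 _ _
  | succ n ih => exact ih.step ih

theorem ref_famL (n : ℕ) : Ref (famL φ (n + 1)) (famL φ n) := by
  induction n with
  | zero => exact ref_step_fam0 _ _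
  | succ n ih => exact ih.step (Ref.refl _)

theorem ref_famL0 (n : ℕ) : Ref (famL φ n) (fam0 φ) := by
  cases n with
  | zero => exact Ref.refl _
  | succ n => exact ref_step_fam0 _ _

theorem good_famD (hA : IsMulCommutative A) (n : ℕ) : Good φ (famD φ n) := by
  induction n with
  | zero => exact good_fam0 hA
  | succ n ih => exact ih.step hA ih

theorem good_famL (hA : IsMulCommutative A) (n : ℕ) : Good φ (famL φ n) := by
  induction n with
  | zero => exact good_fam0 hA
  | succ n ih => exact ih.step hA (good_fam0 hA)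

variable [Finite G] [Finite A]

theorem ncard_famD (n : ℕ) : (famD φ n).ncard ≤ szD (Nat.card A) n := by
  induction n with
  | zero => exact ncard_fam0
  | succ n ih => exact (ncard_step _ _).trans (Nat.mul_le_mul ih (Nat.mul_le_mul ih ncard_fam0))

theorem ncard_famL (n : ℕ) : (famL φ n).ncard ≤ szL (Nat.card A) n := by
  induction n with
  | zero => exact ncard_fam0
  | succ n ih =>
    exact (ncard_step _ _).trans (Nat.mul_le_mul ih (Nat.mul_le_mul ncard_fam0 ncard_fam0))

theorem sSup_famD (hA : IsMulCommutative A) (hcop : (Nat.card A).Coprime (Nat.card G)) (n : ℕ) :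
    sSup (famD φ n) = derivedSeries G n := by
  induction n with
  | zero => exact sSup_fam0 hA hcop
  | succ n ih =>
    rw [derivedSeries_succ, ← ih]
    exact sSup_step hA hcop (good_famD hA n) (good_famD hA n) (ref_famD n) (ref_famD n)

theorem sSup_famL (hA : IsMulCommutative A) (hcop : (Nat.card A).Coprime (Nat.card G)) (n : ℕ) :
    sSup (famL φ n) = (⊤ : Subgroup G).lowerCentralSeries n := by
  induction n with
  | zero => exact sSup_fam0 hA hcop
  | succ n ih =>
    rw [Subgroup.lowerCentralSeries_succ, ← ih, ← sSup_fam0 (φ := φ) hA hcop]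
    exact sSup_step hA hcop (good_famL hA n) (good_fam0 hA) (ref_famL n) (ref_step_fam0 _ _)

omit [Finite G] in
theorem depth_famD (hA : IsMulCommutative A) {p : ℕ} (hp : p.Prime) (hAp : ∀ a : A, a ^ p = 1)
    (n : ℕ) : ∀ U ∈ famD φ n, ∃ B : Subgroup A, B.index ≤ p ^ 2 ^ n ∧ U ≤ derT (fixSub φ B) n := by
  induction n with
  | zero =>
    rintro _ ⟨B, hB, rfl⟩
    exact ⟨B, by simpa using index_le_of_cocyclic hA hp hAp hB, le_rfl⟩
  | succ n ih =>
    rintro _ ⟨U, hU, U', hU', C, _, rfl⟩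
    obtain ⟨B, hB, e⟩ := ih U hU
    obtain ⟨B', hB', e'⟩ := ih U' hU'
    refine ⟨B ⊓ B', index_inf_le.trans ?_, inf_le_left.trans (commutator_mono
      (e.trans (derT_mono n (fixSub_anti inf_le_left)))
      (e'.trans (derT_mono n (fixSub_anti inf_le_right))))⟩
    rw [pow_succ, mul_two, pow_add]
    exact Nat.mul_le_mul hB hB'

omit [Finite G] in
theorem depth_famL (hA : IsMulCommutative A) {p : ℕ} (hp : p.Prime) (hAp : ∀ a : A, a ^ p = 1)
    (n : ℕ) : ∀ U ∈ famL φ n, ∃ B : Subgroup A, B.index ≤ p ^ (n + 1) ∧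
      U ≤ (fixSub φ B).lowerCentralSeries n := by
  induction n with
  | zero =>
    rintro _ ⟨B, hB, rfl⟩
    exact ⟨B, by simpa using index_le_of_cocyclic hA hp hAp hB, le_rfl⟩
  | succ n ih =>
    rintro _ ⟨U, hU, _, ⟨B', hB', rfl⟩, C, _, rfl⟩
    obtain ⟨B, hB, e⟩ := ih U hU
    refine ⟨B ⊓ B', index_inf_le.trans ?_, inf_le_left.trans (commutator_mono
      (e.trans (lowerCentralSeries_mono n (fixSub_anti inf_le_left))) (fixSub_anti inf_le_right))⟩
    rw [pow_succ]
    exact Nat.mul_le_mul hB (index_le_of_cocyclic hA hp hAp hB')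

omit [Finite G] [Finite A] in
theorem fixSub_zpowers (A : Subgroup (MulAut G)) (a : A) :
    fixSub A.subtype (zpowers a) = (a : MulAut G).toMonoidHom.eqLocus (MonoidHom.id G) := by
  ext x
  refine ⟨fun h => h a (mem_zpowers a), fun h b hb => ?_⟩
  have h5 : zpowers a ≤ (MulAction.stabilizer (MulAut G) x).comap A.subtype := zpowers_le.2 h
  exact h5 hb

omit [Group G] [Group A] [Finite G] [Finite A] in
theorem coprime_card {p k : ℕ} (hs : Nat.card A = p ^ k) (hG : (Nat.card G).Coprime p) :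
    (Nat.card A).Coprime (Nat.card G) := hs ▸ hG.symm.pow_left k

end two

end H43.Lie
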