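import Cfsg.Agent.Lib.Sig.LieExt
import Cfsg.Agent.Lib.FGS83.LieLCS
import Cfsg.Agent.Lib.Core.CoprimeExt
import Cfsg.Agent.Lib.Core.Fitting

/-! Groups generated by a weakly closed family of invariant subgroups: the class bound. -/

set_option autoImplicit false

namespace H43.Lie

open H83.Krek H2 Subgroup
open scoped commutatorElement

universe u

section basic

variable {G : Type u} [Group G]

/-- Iterated commutators `[X, U, ..., U]`. -/
def itG (X U : Subgroup G) : ℕ → Subgroup G
  | 0 => X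
  | n + 1 => ⁅itG X U n, U⁆

theorem itG_mono {X X' U U' : Subgroup G} (h : X ≤ X') (h' : U ≤ U') (n : ℕ) :
    itG X U n ≤ itG X' U' n := by
  induction n with
  | zero => exact h
  | succ n ih => exact commutator_mono ih h'

theorem map_itG {G' : Type u} [Group G'] (f : G →* G') (X U : Subgroup G) (n : ℕ) :
    (itG X U n).map f = itG (X.map f) (U.map f) n := by
  induction n with
  | zero => rfl
  | succ n ih => rw [itG, map_commutator, ih, itG]

/-- The homogeneous part of degree `i` attached to a subgroup. -/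
def homS (i : ℕ) (W : Subgroup G) : AddSubgroup (Gr G) where
  carrier := {x | ∃ g ∈ lc G i, g ∈ W ∧ cls i g = x}
  zero_mem' := ⟨1, one_mem _, one_mem _, cls_one i⟩
  add_mem' := by
    rintro _ _ ⟨g, hg, hg', rfl⟩ ⟨h, hh, hh', rfl⟩
    exact ⟨g * h, mul_mem hg hh, mul_mem hg' hh', cls_mul hg hh⟩
  neg_mem' := by
    rintro _ ⟨g, hg, hg', rfl⟩
    exact ⟨g⁻¹, inv_mem hg, inv_mem hg', cls_inv hg⟩

/-- The graded subgroup attached to a subgroup. -/
def bar (W : Subgroup G) : AddSubgroup (Gr G) := ⨆ i, homS i W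

theorem cls_mem_bar {i : ℕ} {g : G} {W : Subgroup G} (hg : g ∈ lc G i) (hW : g ∈ W) :
    cls i g ∈ bar W :=
  (le_iSup (fun i => homS i W) i : homS i W ≤ bar W) ⟨g, hg, hW, rfl⟩

theorem bar_le {W : Subgroup G} {S : AddSubgroup (Gr G)}
    (h : ∀ i, ∀ g ∈ lc G i, g ∈ W → cls i g ∈ S) : bar W ≤ S :=
  iSup_le fun i => by rintro _ ⟨g, hg, hW, rfl⟩; exact h i g hg hW

theorem bar_mono {W W' : Subgroup G} (h : W ≤ W') : bar W ≤ bar W' :=
  bar_le fun _ _ hg hW => cls_mem_bar hg (h hW)

theorem bar_bot : bar (⊥ : Subgroup G) = ⊥ :=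
  le_bot_iff.1 (bar_le fun i g _ hW => by rw [mem_bot.1 hW, cls_one]; exact zero_mem _)

theorem mem_bar_top (x : Gr G) : x ∈ bar (⊤ : Subgroup G) :=
  gr_induction (P := fun x => x ∈ bar (⊤ : Subgroup G)) (zero_mem _)
    (fun _ _ hg => cls_mem_bar hg trivial) (fun _ _ => add_mem) x

theorem br_bar_le (X U : Subgroup G) : br (bar X) (bar U) ≤ bar ⁅X, U⁆ := by
  refine br_iSup_le_left fun i => br_iSup_le_right fun j => br_le.2 ?_
  rintro _ ⟨g, hg, hX, rfl⟩ _ ⟨h, hh, hU, rfl⟩
  rw [lie_cls hg hh]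
  exact cls_mem_bar (comm_mem_lc hg hh) (commutator_mem_commutator hX hU)

theorem it_bar_le (X U : Subgroup G) (n : ℕ) : it (bar X) (bar U) n ≤ bar (itG X U n) := by
  induction n with
  | zero => exact le_rfl
  | succ n ih => exact (br_mono ih le_rfl).trans (br_bar_le _ _)

/-- The elements of degree `i` whose class lies in `S`. -/
def pre (i : ℕ) (S : AddSubgroup (Gr G)) : Subgroup G where
  carrier := {g | g ∈ lc G i ∧ cls i g ∈ S}
  one_mem' := ⟨one_mem _, by rw [cls_one]; exact zero_mem _⟩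
  mul_mem' := fun hg hh =>
    ⟨mul_mem hg.1 hh.1, by rw [cls_mul hg.1 hh.1]; exact add_mem hg.2 hh.2⟩
  inv_mem' := fun hg => ⟨inv_mem hg.1, by rw [cls_inv hg.1]; exact neg_mem hg.2⟩

/-- A bracket closed subgroup containing all classes of degree zero is everything. -/
theorem eq_top_of_br_le {S : AddSubgroup (Gr G)} (h : br S S ≤ S) (h0 : ∀ g : G, cls 0 g ∈ S) :
    S = ⊤ := by
  have key : ∀ i, lc G i ≤ pre i S := by
    intro i
    induction i with
    | zero => exact fun g hg => ⟨hg, h0 g⟩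
    | succ i ih =>
      refine commutator_le.2 fun g hg k _ => ⟨commutator_mem_commutator hg trivial, ?_⟩
      have := lie_cls (i := i) (j := 0) hg (show k ∈ lc G 0 from trivial)
      rw [add_zero] at this
      rw [← this]
      exact h (lie_mem_br (ih hg).2 (h0 k))
  rw [eq_top_iff]
  intro x _
  exact gr_induction (P := fun x => x ∈ S) (zero_mem _) (fun i g hg => (key i hg).2)
    (fun _ _ => add_mem) x

theorem card_nsmul_gr [Finite G] (x : Gr G) : Nat.card G • x = 0 := by
  refine gr_induction (P := fun x => Nat.card G • x = 0) (nsmul_zero _) (fun i g hg => ?_)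
    (fun x y hx hy => by rw [nsmul_add, hx, hy, add_zero]) x
  rw [← cls_pow hg, pow_card_eq_one', cls_one]

variable {A : Type u} [Group A] (φ : A →* MulAut G)

/-- The action on the graded ring. -/
noncomputable def rho : A →* Module.End ℤ (Gr G) where
  toFun a := (grAut (φ a)).toIntLinearMap
  map_one' := by
    have : grAut (φ 1) = AddMonoidHom.id _ :=
      gr_hom_ext fun i g hg => by rw [grAut_cls _ hg, map_one]; rfl
    rw [this]; rfl
  map_mul' a b := by
    have : grAut (φ (a * b)) = (grAut (φ a)).comp (grAut (φ b)) :=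
      gr_hom_ext fun i g hg => by
        rw [AddMonoidHom.comp_apply, grAut_cls _ hg, grAut_cls _ hg,
          grAut_cls _ (aut_mem_lc _ hg), map_mul]; rfl
    rw [this]; rfl

theorem rho_cls (a : A) {i : ℕ} {g : G} (hg : g ∈ lc G i) :
    rho φ a (cls i g) = cls i (φ a g) := grAut_cls _ hg

variable {φ}

theorem rho_mem_bar {W : Subgroup G} {a : A} (hW : ∀ x ∈ W, φ a x ∈ W) {x : Gr G}
    (hx : x ∈ bar W) : rho φ a x ∈ bar W := by
  have : bar W ≤ (bar W).comap (rho φ a).toAddMonoidHom := bar_le fun i g hg h => by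
    change rho φ a (cls i g) ∈ bar W
    rw [rho_cls φ a hg]
    exact cls_mem_bar (aut_mem_lc _ hg) (hW g h)
  exact this hx

variable [Finite G] [Finite A]

theorem mem_bar_fix (hA : IsMulCommutative A) (hcop : (Nat.card A).Coprime (Nat.card G))
    {W : Subgroup G} (hW : ∀ a, ∀ x ∈ W, φ a x ∈ W) (B : Subgroup A) {x : Gr G}
    (hx : x ∈ bar W) (hfix : ∀ b ∈ B, rho φ b x = x) : x ∈ bar (W ⊓ fixSub φ B) := by
  classical
  have : Fintype B := Fintype.ofFinite B
  let T : Gr G →+ Gr G := ∑ b : B, (rho φ b).toAddMonoidHom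
  have hT : ∀ y, T y = ∑ b : B, rho φ b y := fun y => by
    simp only [T, AddMonoidHom.finsetSum_apply]; rfl
  have hTfix : ∀ y, ∀ b ∈ B, rho φ b (T y) = T y := fun y b hb => by
    rw [hT, map_sum]
    refine Fintype.sum_equiv (Equiv.mulLeft (⟨b, hb⟩ : B)) _ _ fun c => ?_
    rw [← Module.End.mul_apply, ← map_mul]; rfl
  have h1 : bar W ≤ (bar (W ⊓ fixSub φ B)).comap T := bar_le fun i g hg h => by
    have h2 : T (cls i g) ∈ homS i W := by
      rw [hT]
      exact sum_mem fun b _ => ⟨φ b g, aut_mem_lc _ hg, hW _ _ h, (rho_cls φ _ hg).symm⟩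
    obtain ⟨k, hk, hkW, e⟩ := h2
    have h3 : ∀ b ∈ B, k⁻¹ * φ b k ∈ lc G (i + 1) ⊓ W := fun b hb => by
      refine mem_inf.2 ⟨?_, mul_mem (inv_mem hkW) (hW _ _ hkW)⟩
      have h4 := hTfix (cls i g) b hb
      rw [← e, rho_cls φ b hk] at h4
      refine (cls_eq_zero_iff (mul_mem (inv_mem hk) (aut_mem_lc _ hk))).1 ?_
      rw [cls_mul (inv_mem hk) (aut_mem_lc _ hk), cls_inv hk, h4, neg_add_cancel]
    obtain ⟨n, hn, hkn⟩ := ext_exists_mul_mem_fixSub (φ := φ) (N := lc G (i + 1) ⊓ W) (B := B)
      (fun b _ y hy => ⟨aut_mem_lc _ hy.1, hW _ _ hy.2⟩) (coprime_subgroups hcop)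
      (solv_subgroups (Or.inl (isSolvable_of_isMulCommutative hA))) h3
    change T (cls i g) ∈ bar (W ⊓ fixSub φ B)
    have hn' : n ∈ lc G i := lc_anti (Nat.le_succ i) hn.1
    have : T (cls i g) = cls i (k * n) := by rw [cls_mul hk hn', cls_zero hn.1, add_zero, e]
    rw [this]
    exact cls_mem_bar (mul_mem hk hn') ⟨mul_mem hkW hn.2, hkn⟩
  have h5 : T x = Nat.card B • x := by
    rw [hT, Finset.sum_congr rfl fun (b : B) _ => hfix b b.2, Finset.sum_const, Finset.card_univ,
      Nat.card_eq_fintype_card]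
  refine mem_of_nsmul_mem (n := Nat.card G) (m := Nat.card B) ?_ (card_nsmul_gr x) ?_
  · exact (hcop.coprime_dvd_left (card_subgroup_dvd_card B)).symm
  · rw [← h5]; exact h1 hx

theorem bar_le_of_cocyclic (hA : IsMulCommutative A) (hcop : (Nat.card A).Coprime (Nat.card G))
    {W : Subgroup G} (hW : ∀ a, ∀ x ∈ W, φ a x ∈ W) {S : AddSubgroup (Gr G)}
    (h : ∀ B : Subgroup A, (∃ a, B ⊔ zpowers a = ⊤) → bar (W ⊓ fixSub φ B) ≤ S) : bar W ≤ S := by
  refine bar_le fun i g hg hgW => ?_
  have : lc G i ⊓ W ≤ pre i S := ext_le_of_forall_cocyclic (φ := φ) hA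
    (fun a y hy => ⟨aut_mem_lc _ hy.1, hW _ _ hy.2⟩)
    (hcop.coprime_dvd_right (card_subgroup_dvd_card _))
    (fun B hB y hy => ⟨hy.1.1, h B hB (cls_mem_bar hy.1.1 ⟨hy.1.2, hy.2⟩)⟩)
  exact (this ⟨hg, hgW⟩).2

omit [Finite G] [Finite A] in
theorem inv_commutator {U V : Subgroup G} {a : A} (hU : ∀ x ∈ U, φ a x ∈ U)
    (hV : ∀ x ∈ V, φ a x ∈ V) : ∀ x ∈ ⁅U, V⁆, φ a x ∈ ⁅U, V⁆ := by
  have : ⁅U, V⁆ ≤ (⁅U, V⁆).comap (φ a).toMonoidHom := commutator_le.2 fun x hx y hy => by
    change (φ a).toMonoidHom ⁅x, y⁆ ∈ ⁅U, V⁆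
    rw [map_commutatorElement]
    exact commutator_mem_commutator (hU x hx) (hV y hy)
  exact fun x hx => this hx

end basic

/-- The lower central series stops after boundedly many steps. -/
theorem lc_bound (p : ℕ) [hp : Fact p.Prime] (c t s : ℕ) : ∃ N : ℕ,
    ∀ (G A ι : Type u) [Group G] [Group A] [Finite G] [Finite A] [Finite ι]
      (φ : A →* MulAut G) (U : ι → Subgroup G), Nat.card ι ≤ t → Nat.card A = s →
      IsMulCommutative A → (∀ a : A, a ^ p = 1) → (Nat.card G).Coprime p →
      (∀ i a, ∀ x ∈ U i, φ a x ∈ U i) → (⨆ i, U i) = ⊤ → (∀ i, ⁅U i, fixSub φ ⊤⁆ ≤ U i) →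
      (∀ i j (B : Subgroup A), (∃ a, B ⊔ zpowers a = ⊤) → ∃ l, ⁅U i, U j⁆ ⊓ fixSub φ B ≤ U l) →
      (∀ i (B : Subgroup A), (∃ a, B ⊔ zpowers a = ⊤) → itG (fixSub φ B) (U i) c = ⊥) →
      lc G N ≤ lc G (N + 1) := by
  choose N hN using fun t => action_bound.{u} p c t s
  refine ⟨(Finset.range (t + 1)).sup N, ?_⟩
  intro G A ι _ _ _ _ _ φ U ht hs hA hAp hG hU hT hC hW hc
  have := Fintype.ofFinite A
  have := Fintype.ofFinite ι
  have hcop : (Nat.card A).Coprime (Nat.card G) := by
    have hP : IsPGroup p A := fun a => ⟨1, by rw [pow_one, hAp]⟩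
    obtain ⟨k, hk⟩ := hP.exists_card_eq
    rw [hk]
    exact (hG.symm).pow_left k
  have hcl : ∀ i j, br (bar (U i)) (bar (U j)) ≤ ⨆ l, bar (U l) := fun i j =>
    (br_bar_le _ _).trans (bar_le_of_cocyclic hA hcop (fun a => inv_commutator (hU i a) (hU j a))
      fun B hB => by
        obtain ⟨l, hl⟩ := hW i j B hB
        exact (bar_mono hl).trans (le_iSup (fun l => bar (U l)) l))
  have htop : (⨆ l, bar (U l)) = ⊤ := by
    refine eq_top_of_br_le (br_iSup_le_left fun i => br_iSup_le_right fun j => hcl i j) ?_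
    have : (⊤ : Subgroup G) ≤ pre 0 (⨆ l, bar (U l)) := by
      rw [← hT]
      exact iSup_le fun i g hg => ⟨trivial, (le_iSup (fun l => bar (U l)) i :)
        (cls_mem_bar (show g ∈ lc G 0 from trivial) hg)⟩
    exact fun g => (this trivial).2
  have h1 := hN (Fintype.card ι) (Gr G) A ι (rho φ) (fun i => bar (U i)) (Nat.card G) rfl
    (by rw [← hs, Nat.card_eq_fintype_card]) (fun a b => hA.is_comm.comm a b) hAp
    (fun a x y => grAut_lie _ x y) hG card_nsmul_gr (fun i a x hx => rho_mem_bar (hU i a) hx) htop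
    (fun i x hx y hy => by
      have := mem_bar_fix hA hcop (W := ⊤) (fun _ _ _ => trivial) ⊤ (mem_bar_top y)
        (fun b _ => hy b)
      rw [top_inf_eq] at this
      exact bar_mono (hC i) (br_bar_le _ _ (lie_mem_br hx this)))
    (fun i j B hB => by
      obtain ⟨l, hl⟩ := hW i j B hB
      exact ⟨l, fun x hx hf => bar_mono hl (mem_bar_fix hA hcop
        (fun a => inv_commutator (hU i a) (hU j a)) B (br_bar_le _ _ hx) hf)⟩)
    (fun i => by
      have h2 : (⊤ : AddSubgroup (Gr G)) ≤
          ⨆ B : {B : Subgroup A // ∃ a, B ⊔ zpowers a = ⊤}, bar (fixSub φ B) := by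
        refine le_trans (fun x _ => mem_bar_top x) (bar_le_of_cocyclic (φ := φ) hA hcop
          (W := ⊤) (fun _ _ _ => trivial) fun B hB => ?_)
        rw [top_inf_eq]
        exact le_iSup (fun B : {B : Subgroup A // ∃ a, B ⊔ zpowers a = ⊤} =>
          bar (fixSub φ B)) ⟨B, hB⟩
      rw [top_le_iff] at h2
      rw [← h2, ← le_bot_iff]
      refine (it_iSup_le_left _ _ _).trans (iSup_le fun B => (it_bar_le _ _ _).trans ?_)
      rw [hc i B B.2, bar_bot])
  rw [Nat.card_eq_fintype_card] at ht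
  have h3 := it_eq_bot_of_le h1 (Finset.le_sup (f := N) (Finset.mem_range.2
    (Nat.lt_succ_of_le ht)))
  intro g hg
  have := cls_mem_it _ g hg
  rw [h3] at this
  exact (cls_eq_zero_iff hg).1 this

section nil

variable {G : Type u} [Group G]

theorem commutator_le_of_normal {X V : Subgroup G} [V.Normal] (h : X ≤ V) (U : Subgroup G) :
    ⁅X, U⁆ ≤ V :=
  (commutator_mono h le_rfl).trans (commutator_le_left V U)

theorem itG_le_of_normal {X V : Subgroup G} [V.Normal] (h : X ≤ V) (U : Subgroup G) (n : ℕ) :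
    itG X U n ≤ V := by
  induction n with
  | zero => exact h
  | succ n ih => exact commutator_le_of_normal ih U

theorem le_normalizer_of_comm {X Y V : Subgroup G} (hV : ⁅V, V⁆ = ⊥) (hX : X ≤ V) (hY : Y ≤ V) :
    X ≤ normalizer (Y : Set G) := by
  rw [le_normalizer_iff_commutator_le_right]
  exact (commutator_mono hX hY).trans (hV.le.trans bot_le)

/-- A group with an abelian normal subgroup with nilpotent quotient, generated by subgroups acting
nilpotently on generators of the normal subgroup, is nilpotent. -/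
theorem isNilpotent_of_abelian [Finite G] {ι κ : Type*} {V : Subgroup G} [V.Normal]
    (hV : ⁅V, V⁆ = ⊥) {n : ℕ} (hn : lc G n ≤ V) {U : ι → Subgroup G} (hU : (⨆ i, U i) = ⊤)
    {X : κ → Subgroup G} (hX : (⨆ k, X k) = V) {c : ℕ} (hc : ∀ i k, itG (X k) (U i) c = ⊥) :
    Group.IsNilpotent G := by
  have hXV : ∀ k, X k ≤ V := fun k => hX ▸ le_iSup X k
  rw [← H1.fitting_eq_top_iff, eq_top_iff, ← hU]
  refine iSup_le fun i => le_trans (le_sup_left (b := V)) (H1.le_fitting_of_isSubnormal ?_ ?_)
  · have key : ∀ j, (U i ⊔ V ⊔ lc G j).IsSubnormal := by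
      intro j
      induction j with
      | zero => rw [show lc G 0 = ⊤ from rfl, sup_top_eq]; exact IsSubnormal.top
      | succ j ih =>
        refine IsSubnormal.step _ _ (sup_le_sup_left (lc_anti (Nat.le_succ j)) _) ih
          (normal_subgroupOf_of_le_normalizer (sup_le ?_ ?_))
        · exact le_normalizer_sup le_normalizer (by rw [normalizer_eq_top]; exact le_top)
        · rw [le_normalizer_iff_commutator_le_right]
          exact (commutator_mono le_rfl le_top).trans le_sup_right
    have := key n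
    rwa [sup_eq_left.2 (hn.trans le_sup_right)] at this
  · have h1 : ∀ j, itG V (U i) j ≤ ⨆ k, itG (X k) (U i) j := by
      intro j
      induction j with
      | zero => exact hX.ge
      | succ j ih =>
        refine (commutator_mono ih le_rfl).trans (commutator_iSup_le (fun k => ?_) fun k => ?_)
        · exact le_normalizer_of_comm hV (itG_le_of_normal (hXV k) _ _)
            (iSup_le fun k => itG_le_of_normal (hXV k) _ _)
        · exact le_iSup (fun k => itG (X k) (U i) (j + 1)) k
    have h2 : ∀ j, (U i ⊔ V).lowerCentralSeries (n + j) ≤ itG V (U i) j := by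
      intro j
      induction j with
      | zero => exact (lowerCentralSeries_mono n le_top).trans hn
      | succ j ih =>
        refine (commutator_mono ih le_rfl).trans ?_
        rw [commutator_comm]
        refine commutator_sup_le (normalizer_commutator_ge_right _ _)
          (le_normalizer_of_comm hV le_rfl (itG_le_of_normal le_rfl _ _))
          (commutator_comm _ _).le ?_
        exact (commutator_mono le_rfl (itG_le_of_normal le_rfl _ _)).trans (hV.le.trans bot_le)
    refine isNilpotent_of_lowerCentralSeries_eq_bot (n := n + c) (le_bot_iff.1 ?_)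
    exact (h2 c).trans ((h1 c).trans (iSup_le fun k => (hc i k).le))

theorem isNilpotent_of_family [Finite G] {A : Type u} [Group A] [Finite A] {φ : A →* MulAut G}
    (hA : IsMulCommutative A) (hcop : (Nat.card A).Coprime (Nat.card G))
    (hs : Group.IsSolvable G) {ι : Type*} {U : ι → Subgroup G} (hU : (⨆ i, U i) = ⊤) {c : ℕ}
    (hc : ∀ i (B : Subgroup A), (∃ a, B ⊔ zpowers a = ⊤) → itG (fixSub φ B) (U i) c = ⊥) :
    Group.IsNilpotent G := by
  have key : ∀ j, ∃ n, lc G n ≤ derivedSeries G j := by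
    intro j
    induction j with
    | zero => exact ⟨0, le_rfl⟩
    | succ j ih =>
      obtain ⟨n, hn⟩ := ih
      let f := QuotientGroup.mk' (derivedSeries G (j + 1))
      have hf : Function.Surjective f := QuotientGroup.mk'_surjective _
      have : ((derivedSeries G j).map f).Normal := Normal.map inferInstance f hf
      have hX : (⨆ B : {B : Subgroup A // ∃ a, B ⊔ zpowers a = ⊤},
          derivedSeries G j ⊓ fixSub φ B) = derivedSeries G j := by
        refine le_antisymm (iSup_le fun _ => inf_le_left) (ext_le_of_forall_cocyclic (φ := φ) hA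
          (fun a x hx => characteristic_iff_le_comap.1 inferInstance (φ a) hx)
          (hcop.coprime_dvd_right (card_subgroup_dvd_card _)) fun B hB => ?_)
        exact le_iSup (fun B : {B : Subgroup A // ∃ a, B ⊔ zpowers a = ⊤} =>
          derivedSeries G j ⊓ fixSub φ B) ⟨B, hB⟩
      have hnil : Group.IsNilpotent (G ⧸ derivedSeries G (j + 1)) := by
        refine isNilpotent_of_abelian (V := (derivedSeries G j).map f) (n := n)
          (U := fun i => (U i).map f) (X := fun B : {B : Subgroup A // ∃ a, B ⊔ zpowers a = ⊤} =>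
            (derivedSeries G j ⊓ fixSub φ B).map f) (c := c) ?_ ?_ ?_ ?_ ?_
        · rw [← map_commutator, Subgroup.map_eq_bot_iff, QuotientGroup.ker_mk']
          exact le_rfl
        · rw [lc, ← map_top_of_surjective f hf, ← map_lowerCentralSeries]
          exact map_mono hn
        · rw [← Subgroup.map_iSup, hU, map_top_of_surjective f hf]
        · rw [← Subgroup.map_iSup, hX]
        · intro i B
          rw [← map_itG, le_bot_iff.1 ((itG_mono inf_le_right le_rfl c).trans (hc i B B.2).le),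
            Subgroup.map_bot]
      obtain ⟨m, hm⟩ := Subgroup.nilpotent_iff_lowerCentralSeries.1 hnil
      refine ⟨m, ?_⟩
      rw [← map_top_of_surjective f hf, ← map_lowerCentralSeries, Subgroup.map_eq_bot_iff,
        QuotientGroup.ker_mk'] at hm
      exact hm
  obtain ⟨j, hj⟩ := hs
  obtain ⟨n, hn⟩ := key j
  rw [hj, le_bot_iff] at hn
  exact Subgroup.nilpotent_iff_lowerCentralSeries.2 ⟨n, hn⟩

end nil

/-- The class bound for a characteristic subgroup generated by a weakly closed family. -/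
theorem class_bound (p : ℕ) [hp : Fact p.Prime] (c t s : ℕ) : ∃ N : ℕ,
    ∀ (G A ι : Type u) [Group G] [Group A] [Finite G] [Finite A] [Finite ι]
      (φ : A →* MulAut G) (U : ι → Subgroup G) (H : Subgroup G) [H.Characteristic],
      Nat.card ι ≤ t → Nat.card A = s →
      IsMulCommutative A → (∀ a : A, a ^ p = 1) → (Nat.card G).Coprime p → Group.IsSolvable G →
      (∀ i a, ∀ x ∈ U i, φ a x ∈ U i) → (⨆ i, U i) = H → (∀ i, ⁅U i, fixSub φ ⊤⁆ ≤ U i) →
      (∀ i j (B : Subgroup A), (∃ a, B ⊔ zpowers a = ⊤) → ∃ l, ⁅U i, U j⁆ ⊓ fixSub φ B ≤ U l) →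
      (∀ i (B : Subgroup A), (∃ a, B ⊔ zpowers a = ⊤) → itG (fixSub φ B) (U i) c = ⊥) →
      H.lowerCentralSeries N = ⊥ := by
  obtain ⟨N, hN⟩ := lc_bound.{u} p c t s
  refine ⟨N, ?_⟩
  intro G A ι _ _ _ _ _ φ U H _ ht hs hA hAp hG hsol hU hT hC hW hc
  let ψ : A →* MulAut H := (MulAut.characteristic H).comp φ
  have hψ : ∀ a (x : H), ((ψ a x : H) : G) = φ a x := fun _ _ => rfl
  have hfix : ∀ B, (fixSub ψ B).map H.subtype ≤ fixSub φ B := by
    rintro B _ ⟨x, hx, rfl⟩ b hb
    exact congrArg Subtype.val (hx b hb)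
  have hUH : ∀ i, ((U i).subgroupOf H).map H.subtype = U i := fun i =>
    map_subgroupOf_eq_of_le (hT ▸ le_iSup U i)
  have hH : (Nat.card H).Coprime p := hG.coprime_dvd_left (card_subgroup_dvd_card H)
  have hT' : (⨆ i, (U i).subgroupOf H) = ⊤ := by
    apply map_injective H.subtype_injective
    rw [Subgroup.map_iSup, ← MonoidHom.range_eq_map, range_subtype]
    simp only [hUH, hT]
  have hc' : ∀ i (B : Subgroup A), (∃ a, B ⊔ zpowers a = ⊤) →
      itG (fixSub ψ B) ((U i).subgroupOf H) c = ⊥ := fun i B hB => by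
    rw [← map_eq_bot_iff_of_injective _ H.subtype_injective, map_itG, hUH, ← le_bot_iff]
    exact (itG_mono (hfix B) le_rfl c).trans (hc i B hB).le
  have h1 := hN H A ι ψ (fun i => (U i).subgroupOf H) ht hs hA hAp hH
    (fun i a x hx => hU i a x hx) hT'
    (fun i => by
      rw [← map_le_map_iff_of_injective H.subtype_injective, map_commutator, hUH]
      exact (commutator_mono le_rfl (hfix ⊤)).trans (hC i))
    (fun i j B hB => by
      obtain ⟨l, hl⟩ := hW i j B hB
      refine ⟨l, ?_⟩
      rw [← map_le_map_iff_of_injective H.subtype_injective, Subgroup.map_inf _ _ _ H.subtype_injective,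
        map_commutator, hUH, hUH, hUH]
      exact (inf_le_inf_left _ (hfix B)).trans hl) hc'
  have hcop : (Nat.card A).Coprime (Nat.card H) := by
    have hP : IsPGroup p A := fun a => ⟨1, by rw [pow_one, hAp]⟩
    obtain ⟨k, hk⟩ := hP.exists_card_eq
    rw [hk]
    exact (hH.symm).pow_left k
  obtain ⟨m, hm⟩ := Subgroup.nilpotent_iff_lowerCentralSeries.1
    (isNilpotent_of_family hA hcop inferInstance hT' hc')
  have h2 : ∀ j, lc H N ≤ lc H (N + j) := by
    intro j
    induction j with
    | zero => exact le_rfl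
    | succ j ih => exact h1.trans (by
        rw [Nat.add_succ]
        exact commutator_mono ih le_rfl)
  have h3 : lc H N = ⊥ := le_bot_iff.1 ((h2 m).trans ((lc_anti (Nat.le_add_left m N)).trans hm.le))
  rw [← top_subtype_lowerCentralSeries, show (⊤ : Subgroup H).lowerCentralSeries N = ⊥ from h3,
    Subgroup.map_bot]

end H43.Lie
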