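import Cfsg.Agent.Lib.FGS83.Kreknin2

/-! Graded Lie rings whose zero component acts nilpotently; families of subgroups acting
nilpotently. -/

set_option autoImplicit false

namespace H43.Lie

open H83.Krek

universe u

variable {L : Type u} [LieRing L]

theorem br_sup_le_left {A B C D : AddSubgroup L} (h1 : br A C ≤ D) (h2 : br B C ≤ D) :
    br (A ⊔ B) C ≤ D :=
  br_le.2 fun _ ha c hc => (sup_le (fun _ h => h1 (lie_mem_br h hc))
    (fun _ h => h2 (lie_mem_br h hc)) : A ⊔ B ≤ lft D c) ha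

theorem br_sup_le_right {A B C D : AddSubgroup L} (h1 : br C A ≤ D) (h2 : br C B ≤ D) :
    br C (A ⊔ B) ≤ D :=
  br_le.2 fun c hc _ ha => (sup_le (fun _ h => h1 (lie_mem_br hc h))
    (fun _ h => h2 (lie_mem_br hc h)) : A ⊔ B ≤ rgt D c) ha

theorem br_iSup_le_left {ι : Sort*} {A : ι → AddSubgroup L} {C D : AddSubgroup L}
    (h : ∀ i, br (A i) C ≤ D) : br (⨆ i, A i) C ≤ D :=
  br_le.2 fun _ ha c hc =>
    (iSup_le fun i _ h' => h i (lie_mem_br h' hc) : (⨆ i, A i) ≤ lft D c) ha

theorem br_iSup_le_right {ι : Sort*} {A : ι → AddSubgroup L} {C D : AddSubgroup L}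
    (h : ∀ i, br C (A i) ≤ D) : br C (⨆ i, A i) ≤ D :=
  br_le.2 fun c hc _ ha =>
    (iSup_le fun i _ h' => h i (lie_mem_br hc h') : (⨆ i, A i) ≤ rgt D c) ha

theorem br_bot_right (A D : AddSubgroup L) : br A ⊥ ≤ D :=
  br_le.2 fun a _ b hb => by rw [AddSubgroup.mem_bot.1 hb, lie_zero]; exact zero_mem _

theorem br_bot_left (A D : AddSubgroup L) : br ⊥ A ≤ D :=
  br_le.2 fun a ha b _ => by rw [AddSubgroup.mem_bot.1 ha, zero_lie]; exact zero_mem _

theorem it_iSup_le_left {ι : Sort*} (A : ι → AddSubgroup L) (U : AddSubgroup L) (n : ℕ) :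
    it (⨆ i, A i) U n ≤ ⨆ i, it (A i) U n := by
  induction n with
  | zero => exact le_rfl
  | succ n ih => exact (br_mono ih le_rfl).trans (br_iSup_le_left fun i => le_iSup_of_le i le_rfl)

theorem it_le_self {V S : AddSubgroup L} (h : br V S ≤ V) (n : ℕ) : it V S n ≤ V := by
  induction n with
  | zero => exact le_rfl
  | succ n ih => exact (br_mono ih le_rfl).trans h

theorem it_eq_bot_of_le {V S : AddSubgroup L} {a b : ℕ} (h : it V S a = ⊥) (hab : a ≤ b) :
    it V S b = ⊥ := by
  obtain ⟨c, rfl⟩ := Nat.exists_eq_add_of_le hab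
  rw [it_add, h]
  exact le_bot_iff.1 (it_le_self (br_bot_left _ _) c)

section KS

variable {n : ℕ} [NeZero n] {M : ZMod n → AddSubgroup L}

omit [NeZero n] in
theorem gen_br_zero (hM : Closed M) {k : ℕ} {w : ZMod n} : br (gen M k w) (M 0) ≤ gen M k w := by
  refine br_le.2 fun a ha z hz => ?_
  change Gen M k w a at ha
  change Gen M k w _
  induction ha with
  | base h hx => exact Gen.base h (by simpa using hM _ _ _ hx _ hz)
  | @br u j w y x hy h hx e ih =>
    have e1 : ⁅⁅y, x⁆, z⁆ = ⁅y, ⁅x, z⁆⁆ + ⁅⁅y, z⁆, x⁆ := by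
      rw [lie_lie, sub_eq_add_neg, lie_skew]
    rw [e1]
    exact (hy.br h (by simpa using hM _ _ _ hx _ hz) e).add (ih.br h hx e)
  | zero => rw [zero_lie]; exact Gen.zero
  | add _ _ h1 h2 => rw [add_lie]; exact h1.add h2
  | neg _ h1 => rw [neg_lie]; exact h1.neg

theorem gen_easy' {u v w : ZMod n} (e : u + v = w) (hv : w.val ≤ v.val) {a b : L} (ha : a ∈ M u)
    (hb : b ∈ M v) : ⁅a, b⁆ ∈ gen M (w.val + 1) w ⊔ br (M w) (M 0) := by
  by_cases hu : u = 0
  · subst hu
    rw [zero_add] at e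
    subst e
    rw [← lie_skew]
    exact AddSubgroup.mem_sup_right (neg_mem (lie_mem_br hb ha))
  have h1 : u.val ≠ 0 := by rwa [Ne, ZMod.val_eq_zero]
  have h2 := ZMod.val_lt u
  have h3 := ZMod.val_lt v
  have h4 : w.val = (u.val + v.val) % n := by rw [← e, ZMod.val_add]
  have h5 : n ≤ u.val + v.val := by
    by_contra h
    rw [Nat.mod_eq_of_lt (by omega)] at h4
    omega
  rw [Nat.mod_eq_sub_mod h5, Nat.mod_eq_of_lt (by omega)] at h4
  exact AddSubgroup.mem_sup_left ((Gen.base (by omega) ha).br (by omega) hb e)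

theorem gen_step' (hM : Closed M) (w : ZMod n) (m : ℕ) : ∀ v : ZMod n, v.val = m → ∀ b ∈ M v,
    ∀ (u : ZMod n) (a : L), Gen M w.val u a → u + v = w →
      ⁅a, b⁆ ∈ gen M (w.val + 1) w ⊔ br (M w) (M 0) := by
  induction m using Nat.strong_induction_on with
  | _ m ih =>
  intro v hv b hb u a ha
  by_cases h1 : w.val ≤ v.val
  · exact fun e => gen_easy' e h1 (ha.mem hM) hb
  by_cases hv0 : v = 0
  · subst hv0
    intro e
    rw [add_zero] at e
    subst e
    exact AddSubgroup.mem_sup_right (lie_mem_br (ha.mem hM) hb)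
  have hv1 : v.val ≠ 0 := by rwa [Ne, ZMod.val_eq_zero]
  have h3 := ZMod.val_lt v
  induction ha with
  | @base j x h hx =>
    intro e
    rw [← lie_skew]
    exact neg_mem (gen_easy' (by rw [← e, add_comm]) h hb hx)
  | @br u' j w' y x hy h hx e' _ =>
    intro e
    rw [lie_lie, sub_eq_add_neg]
    refine add_mem ?_ ?_
    · have h2 := ZMod.val_lt j
      have h4 : (j + v).val = (j.val + v.val) % n := ZMod.val_add _ _
      have e2 : u' + (j + v) = w := by rw [← e, ← e', add_assoc]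
      by_cases h5 : n ≤ j.val + v.val
      · rw [Nat.mod_eq_sub_mod h5, Nat.mod_eq_of_lt (by omega)] at h4
        exact ih _ (by omega) (j + v) rfl _ (hM _ _ _ hx _ hb) _ _ hy e2
      · rw [Nat.mod_eq_of_lt (by omega)] at h4
        exact gen_easy' e2 (by omega) (hy.mem hM) (hM _ _ _ hx _ hb)
    · rw [lie_skew]
      exact gen_easy' (u := u' + v) (by rw [← e, ← e']; ring) h (hM _ _ _ (hy.mem hM) _ hb) hx
  | zero => intro _; rw [zero_lie]; exact zero_mem _
  | add _ _ h1 h2 => intro e; rw [add_lie]; exact add_mem (h1 e) (h2 e)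
  | neg _ h1 => intro e; rw [neg_lie]; exact neg_mem (h1 e)

theorem ks_aux (n : ℕ) [NeZero n] (m k : ℕ) : ∃ g : ℕ, ∀ (L : Type u) [LieRing L]
    (M : ZMod n → AddSubgroup L), Closed M → (∀ w, it (M w) (M 0) m = ⊥) →
      ∀ u, der^[g] M u ≤ gen M k u := by
  induction k with
  | zero => exact ⟨0, fun L _ M _ _ u x hx => Gen.base (Nat.zero_le _) hx⟩
  | succ k ih =>
    obtain ⟨g, hg⟩ := ih
    refine ⟨g + (g + 1) * m, fun L _ M hM h0 u x hx => ?_⟩
    have hsub : ∀ s w, it (der^[s] M w) (der^[s] M 0) m = ⊥ := fun s w =>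
      le_bot_iff.1 ((it_mono ((hM.iter s).2 _) ((hM.iter s).2 _) m).trans (h0 w).le)
    rw [Function.iterate_add_apply] at hx
    refine Gen.mono (fun j hj => ?_) (hg L _ (hM.iter _).1 (hsub _) u hx)
    rcases hj.lt_or_eq with hj | hj
    · exact fun y hy => Gen.base hj ((hM.iter _).2 j hy)
    have key : ∀ a, der^[(g + 1) * a] M j ≤ gen M (k + 1) j ⊔ it (M j) (M 0) a := by
      intro a
      induction a with
      | zero => exact le_sup_right
      | succ a iha =>
        have hN := hM.iter ((g + 1) * a)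
        rw [mul_add, mul_one, add_comm, Function.iterate_add_apply, Function.iterate_succ_apply']
        refine der_le fun i i' e b hb c hc => ?_
        have h1 := gen_step' hN.1 j _ i' rfl c ((hN.1.iter _).2 _ hc) i b
          (hj ▸ hg L _ hN.1 (hsub _) i hb) e
        rw [← hj] at h1
        refine (sup_le ?_ ?_ : _ ≤ gen M (k + 1) j ⊔ it (M j) (M 0) (a + 1)) h1
        · exact le_trans (fun y hy => Gen.mono (fun l hl z hz => Gen.base hl (hN.2 l hz)) hy)
            le_sup_left
        · exact (br_mono iha (hN.2 0)).trans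
            (br_sup_le_left ((gen_br_zero hM).trans le_sup_left) le_sup_right)
    have := key m
    rwa [h0, sup_bot_eq] at this

/-- The derived subring. -/
def dd (S : AddSubgroup L) : AddSubgroup L := br S S

omit [NeZero n] in
theorem dd_iter_le (M : ZMod n → AddSubgroup L) (g : ℕ) :
    dd^[g] (⨆ t, M t) ≤ ⨆ t, der^[g] M t := by
  induction g with
  | zero => exact le_rfl
  | succ g ih =>
    simp only [Function.iterate_succ_apply']
    exact (br_mono ih ih).trans (br_iSup_le_der _)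

/-- A cyclically graded Lie ring on which the zero component acts nilpotently is solvable of
bounded derived length. -/
theorem ks (n : ℕ) [NeZero n] (m : ℕ) : ∃ g : ℕ, ∀ (L : Type u) [LieRing L]
    (M : ZMod n → AddSubgroup L), Closed M → (∀ w, it (M w) (M 0) m = ⊥) →
      dd^[g] (⨆ t, M t) = ⊥ := by
  obtain ⟨g, hg⟩ := ks_aux.{u} n m n
  refine ⟨g, fun L _ M hM h0 => le_bot_iff.1 ((dd_iter_le M g).trans (iSup_le fun u x hx => ?_))⟩
  have h : Gen M n u x := hg L M hM h0 u hx
  rw [AddSubgroup.mem_bot]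
  clear hx
  induction h with
  | @base j _ h _ => have := ZMod.val_lt j; omega
  | @br _ j _ _ _ _ h _ _ _ => have := ZMod.val_lt j; omega
  | zero => rfl
  | add _ _ h1 h2 => rw [h1, h2, add_zero]
  | neg _ h1 => rw [h1, neg_zero]

end KS

theorem it_mul_le {S : AddSubgroup L} (W : ℕ → AddSubgroup L) (n : ℕ)
    (h : ∀ a, it (W a) S n ≤ W (a + 1)) (a : ℕ) : it (W 0) S (n * a) ≤ W a := by
  induction a with
  | zero => exact le_rfl
  | succ a ih => rw [mul_add, mul_one, it_add]; exact (it_mono ih le_rfl n).trans (h a)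

/-- A sum of subgroups, each an ideal modulo `K` and acting nilpotently, acts nilpotently. -/
theorem it_biSup_le {ι : Type*} {c : ℕ} {U : ι → AddSubgroup L} {S K : AddSubgroup L}
    (hU : ∀ i, U i ≤ S) (hK : ∀ i, br (U i) S ≤ U i ⊔ K) (I : Finset ι) :
    ∀ V Z : AddSubgroup L, Z ≤ V → br V S ≤ V → br Z S ≤ Z → br V K ≤ Z →
      (∀ i, it V (U i) c ≤ Z) → it V (⨆ i ∈ I, U i) (c ^ I.card) ≤ Z := by
  classical
  induction I using Finset.induction_on with
  | empty =>
    intro V Z _ _ _ _ _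
    simp only [Finset.notMem_empty, iSup_false, iSup_bot, Finset.card_empty, pow_zero]
    exact br_bot_right V Z
  | insert i I hi ih =>
    intro V Z hZV hV hZ hVK hc
    rw [Finset.card_insert_of_notMem hi, pow_succ, Finset.iSup_insert]
    obtain ⟨W, hW0, hW⟩ : ∃ W : ℕ → AddSubgroup L, W 0 = V ∧ ∀ a, W (a + 1) = br (W a) (U i) ⊔ Z :=
      ⟨fun a => Nat.rec V (fun _ X => br X (U i) ⊔ Z) a, rfl, fun _ => rfl⟩
    have hI : (⨆ j ∈ I, U j) ≤ S := iSup₂_le fun j _ => hU j
    have h1 : ∀ a, W a ≤ V ∧ br (W a) S ≤ W a ∧ W a ≤ it V (U i) a ⊔ Z := by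
      intro a
      induction a with
      | zero => rw [hW0]; exact ⟨le_rfl, hV, le_sup_left⟩
      | succ a iha =>
        rw [hW]
        refine ⟨sup_le ((br_mono iha.1 (hU i)).trans hV) hZV,
          br_sup_le_left (br_br_le fun x hx y hy z hz => ?_) (hZ.trans le_sup_right),
          sup_le ((br_mono iha.2.2 le_rfl).trans (br_sup_le_left le_sup_left
            (((br_mono le_rfl (hU i)).trans hZ).trans le_sup_right))) le_sup_right⟩
        have e : ⁅⁅x, y⁆, z⁆ = ⁅x, ⁅y, z⁆⁆ + ⁅⁅x, z⁆, y⁆ := by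
          rw [lie_lie, sub_eq_add_neg, lie_skew]
        rw [e]
        refine add_mem ?_ (AddSubgroup.mem_sup_left (lie_mem_br (iha.2.1 (lie_mem_br hx hz)) hy))
        exact br_sup_le_right le_sup_left (((br_mono iha.1 le_rfl).trans hVK).trans le_sup_right)
          (lie_mem_br hx (hK i (lie_mem_br hy hz)))
    have hZW : ∀ a, Z ≤ W a := by
      intro a
      cases a with
      | zero => rw [hW0]; exact hZV
      | succ a => rw [hW]; exact le_sup_right
    generalize (⨆ j ∈ I, U j) = R at ih hI ⊢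
    have h2 : ∀ a, it (W a) (U i ⊔ R) (c ^ I.card) ≤ W (a + 1) := by
      intro a
      have h4 : br (W a) (U i) ≤ W (a + 1) := by rw [hW]; exact le_sup_left
      have h3 : ∀ n, it (W a) (U i ⊔ R) n ≤ it (W a) R n ⊔ W (a + 1) := by
        intro n
        induction n with
        | zero => exact le_sup_left
        | succ n ihn =>
          have h5 : it (W a) R n ≤ W a := it_le_self ((br_mono le_rfl hI).trans (h1 a).2.1) n
          have h6 : br (W (a + 1)) (U i ⊔ R) ≤ W (a + 1) :=
            (br_mono le_rfl (sup_le (hU i) hI)).trans (h1 _).2.1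
          exact (br_mono ihn le_rfl).trans (br_sup_le_left (br_sup_le_right
            (((br_mono h5 le_rfl).trans h4).trans le_sup_right) le_sup_left) (h6.trans le_sup_right))
      have h7 : W (a + 1) ≤ W a := by
        rw [hW]; exact sup_le ((br_mono le_rfl (hU i)).trans (h1 a).2.1) (hZW a)
      exact (h3 _).trans (sup_le (ih _ _ h7 (h1 a).2.1 (h1 _).2.1
        (((br_mono (h1 a).1 le_rfl).trans hVK).trans (hZW _))
        fun j => ((it_mono (h1 a).1 le_rfl c).trans (hc j)).trans (hZW _)) le_rfl)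
    rw [← hW0]
    exact (it_mul_le W _ h2 c).trans ((h1 c).2.2.trans (sup_le (hc i) le_rfl))

theorem it_iSup_le {ι : Type*} [Fintype ι] {c : ℕ} {U : ι → AddSubgroup L} {K V Z : AddSubgroup L}
    (hK : ∀ i, br (U i) (⨆ i, U i) ≤ U i ⊔ K) (hZV : Z ≤ V) (hV : br V (⨆ i, U i) ≤ V)
    (hZ : br Z (⨆ i, U i) ≤ Z) (hVK : br V K ≤ Z) (hc : ∀ i, it V (U i) c ≤ Z) :
    it V (⨆ i, U i) (c ^ Fintype.card ι) ≤ Z := by
  have := it_biSup_le (le_iSup U) hK Finset.univ V Z hZV hV hZ hVK hc
  simpa using this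

/-- A solvable sum of a bracket closed family of nilpotently acting subgroups acts nilpotently. -/
theorem it_eq_bot_of_solvable {ι : Type*} [Fintype ι] {c : ℕ} {T : AddSubgroup L} (n : ℕ) :
    ∀ U : ι → AddSubgroup L, (∀ i j, ∃ l, br (U i) (U j) ≤ U l) → br T (⨆ i, U i) ≤ T →
      (∀ i, it T (U i) c = ⊥) → dd^[n] (⨆ i, U i) = ⊥ →
      it T (⨆ i, U i) ((c ^ Fintype.card ι) ^ n) = ⊥ := by
  induction n with
  | zero =>
    intro U _ _ _ h
    rw [show (⨆ i, U i) = ⊥ from h, pow_zero]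
    exact le_bot_iff.1 (br_bot_right _ _)
  | succ n ih =>
    intro U hcl hT hc h
    set S := ⨆ i, U i with hS
    have hSS : br S S ≤ S := br_iSup_le_left fun i => br_iSup_le_right fun j =>
      (hcl i j).elim fun l hl => le_iSup_of_le l hl
    have he : (⨆ i, U i ⊓ br S S) = br S S := le_antisymm (iSup_le fun _ => inf_le_right)
      (br_iSup_le_left fun i => br_iSup_le_right fun j => (hcl i j).elim fun l hl =>
        le_iSup_of_le l (le_inf hl (br_mono (le_iSup U i) (le_iSup U j))))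
    have h1 := ih (fun i => U i ⊓ br S S) (fun i j => (hcl i j).imp fun l hl => le_inf
      ((br_mono inf_le_left inf_le_left).trans hl)
      (br_mono (inf_le_left.trans (le_iSup U i)) (inf_le_left.trans (le_iSup U j))))
      (by rw [he]; exact (br_mono le_rfl hSS).trans hT)
      (fun i => le_bot_iff.1 ((it_mono le_rfl inf_le_left c).trans (hc i).le)) (by rw [he]; exact h)
    rw [he] at h1
    have h2 : ∀ a, br (it T (br S S) a) S ≤ it T (br S S) a := it_ideal hT (br_ideal hSS hSS)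
    rw [pow_succ', eq_bot_iff, ← h1]
    refine it_mul_le (fun a => it T (br S S) a) _ (fun a => ?_) _
    refine it_iSup_le (K := br S S) (fun i => (br_mono (le_iSup U i) le_rfl).trans le_sup_right)
      ((br_mono le_rfl hSS).trans (h2 a)) (h2 a) (h2 (a + 1)) le_rfl fun i => ?_
    exact ((it_mono (it_le_self ((br_mono le_rfl hSS).trans hT) a) le_rfl c).trans (hc i).le).trans
      bot_le

/-- `U` if `P` holds, and zero otherwise. -/
@[irreducible] def cut (P : Prop) (U : AddSubgroup L) : AddSubgroup L := ⨆ _ : P, U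

theorem cut_le {P : Prop} {U D : AddSubgroup L} (h : P → U ≤ D) : cut P U ≤ D := by
  unfold cut; exact iSup_le h

theorem cut_le_self {P : Prop} {U : AddSubgroup L} : cut P U ≤ U := cut_le fun _ => le_rfl

theorem le_cut {P : Prop} {U D : AddSubgroup L} (h : P) (h' : D ≤ U) : D ≤ cut P U := by
  unfold cut; exact le_iSup_of_le h h'

theorem br_cut_le {P Q : Prop} {U V D : AddSubgroup L} (h : P → Q → br U V ≤ D) :
    br (cut P U) (cut Q V) ≤ D := by
  unfold cut; exact br_iSup_le_left fun hP => br_iSup_le_right fun hQ => h hP hQ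

/-- Families of homogeneous subgroups of a Lie ring graded by an elementary abelian group. -/
theorem graded_bound (p : ℕ) [NeZero p] (c t s : ℕ) : ∃ N : ℕ, ∀ (L : Type u) [LieRing L]
    (ι X : Type u) [Fintype ι] (w : ι → X → ZMod p) (U : ι → AddSubgroup L) (T : AddSubgroup L),
    Fintype.card ι = t → (∀ i j, ∃ l, w l = w i + w j ∧ br (U i) (U j) ≤ U l) →
    (∀ i j, w j = 0 → br (U i) (U j) ≤ U i) → br T (⨆ i, U i) ≤ T → (⨆ i, U i) ≤ T →
    (∀ i, it T (U i) c = ⊥) → ∀ Y : Finset X, Y.card = s →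
    it T (⨆ i, cut (∀ x ∉ Y, w i x = 0) (U i)) N = ⊥ := by
  classical
  induction s with
  | zero =>
    refine ⟨c ^ t, fun L _ ι X _ w U T ht h1 h2 hT _ hc Y hY => ?_⟩
    rw [Finset.card_eq_zero.1 hY, ← ht, eq_bot_iff]
    refine it_iSup_le (K := ⊥) (fun i => br_iSup_le_right fun j => br_cut_le fun hi hj => ?_) bot_le
      ((br_mono le_rfl (iSup_mono fun i => cut_le_self)).trans hT) (br_bot_left _ _)
      (br_bot_right _ _) fun i => (it_mono le_rfl cut_le_self c).trans (hc i).le
    exact (le_cut hi (h2 i j (funext fun x => hj x (Finset.notMem_empty x)))).trans le_sup_left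
  | succ s ih =>
    obtain ⟨m, hm⟩ := ih
    obtain ⟨g, hg⟩ := ks.{u} p m
    refine ⟨(c ^ t) ^ g, fun L _ ι X _ w U T ht h1 h2 hT hT' hc Y hY => ?_⟩
    obtain ⟨x, Y', hx, rfl, hY'⟩ := Finset.card_eq_succ.1 hY
    have h3 := hm L ι X w U T ht h1 h2 hT hT' hc Y' hY'
    rw [← ht]
    refine it_eq_bot_of_solvable g _ (fun i j => ?_)
      ((br_mono le_rfl (iSup_mono fun _ => cut_le_self)).trans hT)
      (fun i => le_bot_iff.1 ((it_mono le_rfl cut_le_self c).trans (hc i).le)) ?_
    · obtain ⟨l, e, hl⟩ := h1 i j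
      exact ⟨l, br_cut_le fun hi hj => le_cut
        (fun y hy => by rw [e, Pi.add_apply, hi y hy, hj y hy, add_zero]) hl⟩
    obtain ⟨M, hM0⟩ : ∃ M : ZMod p → AddSubgroup L, ∀ v, M v =
      ⨆ i, cut ((∀ y ∉ insert x Y', w i y = 0) ∧ w i x = v) (U i) := ⟨_, fun _ => rfl⟩
    have hM : (⨆ v, M v) = ⨆ i, cut (∀ y ∉ insert x Y', w i y = 0) (U i) := by
      refine le_antisymm (iSup_le fun v => ?_) (iSup_le fun i => cut_le fun h => ?_)
      · rw [hM0]; exact iSup_mono fun i => cut_le fun h => le_cut h.1 le_rfl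
      · refine le_iSup_of_le (w i x) ?_
        rw [hM0]; exact le_iSup_of_le i (le_cut ⟨h, rfl⟩ le_rfl)
    rw [← hM]
    refine hg L M (fun a b => br_le.1 ?_) fun v => le_bot_iff.1 ((it_mono ?_ ?_ m).trans h3.le)
    · simp only [hM0]
      refine br_iSup_le_left fun i => br_iSup_le_right fun j => br_cut_le fun hi hj => ?_
      obtain ⟨l, e, hl⟩ := h1 i j
      exact le_iSup_of_le l (le_cut ⟨fun y hy => by
        rw [e, Pi.add_apply, hi.1 y hy, hj.1 y hy, add_zero], by
        rw [e, Pi.add_apply, hi.2, hj.2]⟩ hl)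
    · rw [hM0]; exact (iSup_mono fun i => cut_le_self).trans hT'
    · rw [hM0]
      refine iSup_mono fun i => cut_le fun h => le_cut (fun y hy => ?_) le_rfl
      by_cases hyx : y = x
      · rw [hyx, h.2]
      · exact h.1 y (by simp [hyx, hy])

end H43.Lie
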